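import Mathlib
import Cfsg.Prelude.Def_Blocks
import Cfsg.Agent.Lib.Helper80.Eigen
import Cfsg.Agent.Lib.Helper80.CharKer
import Cfsg.Agent.Lib.Helper3.Burnside
import Cfsg.Agent.Lib.Helper77.Defect

/-!
Generic arithmetic lemmas for the index three case of the Brauer--Leonard theory.
-/

set_option autoImplicit false

namespace Cfsg.Agent.Lib.Helper78

open Cfsg

/-- a set carrying nonzero integers whose squares sum to three, one of them being one -/
theorem bl_X_three {ι : Type*} (X : Set ι) [Finite X] (a : ι → ℤ) (e : ι) (he : e ∈ X)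
    (hnz : ∀ χ ∈ X, a χ ≠ 0) (hae : a e = 1) (hsum : ∑ᶠ χ ∈ X, a χ ^ 2 = 3) :
    ∃ χ₂ χ₃ : ι, χ₂ ≠ e ∧ χ₃ ≠ e ∧ χ₂ ≠ χ₃ ∧ X = {e, χ₂, χ₃} ∧
      (a χ₂ = 1 ∨ a χ₂ = -1) ∧ (a χ₃ = 1 ∨ a χ₃ = -1) := by
  classical
  haveI : Fintype X := Fintype.ofFinite X
  rw [finsum_mem_eq_toFinset_sum _ X] at hsum
  obtain ⟨T, hT⟩ : ∃ T : Finset ι, T = X.toFinset.erase e := ⟨_, rfl⟩
  have hsumT : ∑ χ ∈ T, a χ ^ 2 = 2 := by
    have h : a e ^ 2 + ∑ χ ∈ X.toFinset.erase e, a χ ^ 2 = ∑ χ ∈ X.toFinset, a χ ^ 2 :=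
      Finset.add_sum_erase X.toFinset (fun χ => a χ ^ 2) (Set.mem_toFinset.mpr he)
    rw [hae, ← hT] at h
    linarith
  have hpos : ∀ χ ∈ T, 1 ≤ a χ ^ 2 := by
    intro χ hχ
    rw [hT, Finset.mem_erase, Set.mem_toFinset] at hχ
    have h0 := hnz χ hχ.2
    have : 0 < a χ ^ 2 := by positivity
    omega
  have hcard : (T.card : ℤ) ≤ 2 := by
    have h := Finset.card_nsmul_le_sum T (fun χ => a χ ^ 2) 1 hpos
    rw [hsumT] at h
    simpa using h
  have hsq : ∀ z : ℤ, z ^ 2 = 1 → z = 1 ∨ z = -1 := by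
    intro z hz
    have h1 : (z - 1) * (z + 1) = 0 := by linear_combination hz
    rcases mul_eq_zero.mp h1 with h | h
    · left; linarith
    · right; linarith
  have hcard2 : T.card = 2 := by
    by_contra h
    have h01 : T.card = 0 ∨ T.card = 1 := by omega
    rcases h01 with h0 | h1
    · rw [Finset.card_eq_zero] at h0
      rw [h0] at hsumT
      simp at hsumT
    · obtain ⟨χ, hχ⟩ := Finset.card_eq_one.mp h1
      rw [hχ, Finset.sum_singleton] at hsumT
      have h1 : a χ ≤ 1 := by nlinarith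
      have h2 : -1 ≤ a χ := by nlinarith
      have h3 : a χ = -1 ∨ a χ = 0 ∨ a χ = 1 := by omega
      rcases h3 with h | h | h <;> rw [h] at hsumT <;> norm_num at hsumT
  obtain ⟨χ₂, χ₃, h23, hT2⟩ := Finset.card_eq_two.mp hcard2
  have hm2 : χ₂ ∈ T := by rw [hT2]; simp
  have hm3 : χ₃ ∈ T := by rw [hT2]; simp
  rw [hT2, Finset.sum_pair h23] at hsumT
  have hp2 := hpos χ₂ hm2
  have hp3 := hpos χ₃ hm3
  have hq2 : a χ₂ ^ 2 = 1 := by linarith
  have hq3 : a χ₃ ^ 2 = 1 := by linarith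
  have hm2' := hm2
  have hm3' := hm3
  rw [hT, Finset.mem_erase, Set.mem_toFinset] at hm2' hm3'
  refine ⟨χ₂, χ₃, hm2'.1, hm3'.1, h23, ?_, hsq _ hq2, hsq _ hq3⟩
  ext x
  simp only [Set.mem_insert_iff, Set.mem_singleton_iff]
  constructor
  · intro hx
    by_cases hxe : x = e
    · exact Or.inl hxe
    · right
      have hxT : x ∈ T := by
        rw [hT, Finset.mem_erase, Set.mem_toFinset]
        exact ⟨hxe, hx⟩
      rw [hT2, Finset.mem_insert, Finset.mem_singleton] at hxT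
      exact hxT
  · rintro (rfl | rfl | rfl)
    · exact he
    · exact hm2'.2
    · exact hm3'.2

/-- character values at involutions are rational integers -/
theorem bl_char_invol_int {G : Type*} [Group G] [Finite G] {χ : G → ℂ}
    (h : Cfsg.IsCharacter G χ) (t : G) (ht : orderOf t = 2) : ∃ k : ℤ, χ t = (k : ℂ) := by
  obtain ⟨n, ρ, rfl⟩ := h
  obtain ⟨ι, hι, v, μ, h1, h2, -⟩ := Cfsg.Agent.Lib.Helper80.exists_eigenbasis ρ t
  have hμ : ∀ i, ∃ k : ℤ, μ i = (k : ℂ) := by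
    intro i
    have h3 := h2 i
    rw [ht] at h3
    have h4 : (μ i - 1) * (μ i + 1) = 0 := by linear_combination h3
    rcases mul_eq_zero.mp h4 with h | h
    · refine ⟨1, ?_⟩
      push_cast
      linear_combination h
    · refine ⟨-1, ?_⟩
      push_cast
      linear_combination h
  choose k hk using hμ
  refine ⟨∑ i, k i, ?_⟩
  unfold Representation.character
  rw [Cfsg.Agent.Lib.Helper80.trace_eq_sum_of_eigenbasis (ρ t) v μ h1]
  push_cast
  exact Finset.sum_congr rfl fun i _ => hk i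

/-- an irreducible character that is constant is the trivial character -/
theorem bl_irr_eq_triv_of_const {G : Type*} [Group G] [Finite G] (χ : Cfsg.IrrCharacter G)
    (h : ∀ g : G, (χ : G → ℂ) g = (χ : G → ℂ) 1) : χ = Cfsg.Agent.Lib.Helper77.trivIrr G := by
  obtain ⟨f, n, ρ, hirr, rfl⟩ := χ
  haveI := hirr
  have hid : ∀ x : G, ρ x = LinearMap.id := by
    intro x
    have h1 : ρ.character x = ρ.character 1 := h x
    rw [Representation.char_one] at h1
    exact (Cfsg.Agent.Lib.Helper80.char_eq_finrank_iff ρ x).mp h1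
  have h2 := Cfsg.Agent.Lib.Helper3.character_eq_one_of_trivial ρ hid
  apply Subtype.ext
  exact h2

/-- a nontrivial irreducible character does not take its degree at an element lying in no
proper normal subgroup -/
theorem bl_val_ne_deg {G : Type*} [Group G] [Finite G] (χ : Cfsg.IrrCharacter G)
    (hχ : χ ≠ Cfsg.Agent.Lib.Helper77.trivIrr G) (t : G)
    (hK : ∀ K : Subgroup G, K.Normal → t ∈ K → K = ⊤) :
    (χ : G → ℂ) t ≠ (χ : G → ℂ) 1 := by
  intro h
  have h1 := hK (Cfsg.Agent.Lib.Helper80.irrKer χ) inferInstance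
    ((Cfsg.Agent.Lib.Helper80.mem_irrKer χ t).mpr h)
  apply hχ
  apply bl_irr_eq_triv_of_const
  intro g
  exact (Cfsg.Agent.Lib.Helper80.mem_irrKer χ g).mp (by rw [h1]; exact Subgroup.mem_top g)

/-- the Vandermonde computation -/
theorem bl_vander (w2 w3 w4 u2 u3 u4 : ℚ) (h0 : w2 + w3 + w4 = -1)
    (h1 : w2 * u2 + w3 * u3 + w4 * u4 = 0)
    (h2 : w2 * u2 ^ 2 + w3 * u3 ^ 2 + w4 * u4 ^ 2 = 0)
    (hu2 : u2 ≠ 0) (hu3 : u3 ≠ 0) (hu4 : u4 ≠ 0) :
    ∃ l : ℚ, l ≠ 0 ∧ w2 * w3 * w4 = l ^ 2 := by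
  obtain ⟨D, hD⟩ : ∃ D : ℚ, D = (u3 - u2) * (u4 - u2) * (u4 - u3) := ⟨_, rfl⟩
  have e2 : w2 * D = -(u3 * u4 * (u4 - u3)) := by
    rw [hD]
    linear_combination (u3 * u4 ^ 2 - u4 * u3 ^ 2) * h0 - (u4 ^ 2 - u3 ^ 2) * h1 + (u4 - u3) * h2
  have e3 : w3 * D = u2 * u4 * (u4 - u2) := by
    rw [hD]
    linear_combination -(u2 * u4 ^ 2 - u4 * u2 ^ 2) * h0 + (u4 ^ 2 - u2 ^ 2) * h1 - (u4 - u2) * h2
  have e4 : w4 * D = -(u2 * u3 * (u3 - u2)) := by
    rw [hD]
    linear_combination (u2 * u3 ^ 2 - u3 * u2 ^ 2) * h0 - (u3 ^ 2 - u2 ^ 2) * h1 + (u3 - u2) * h2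
  have hall : u3 = u2 → u4 = u2 → False := by
    intro h32 h42
    rw [h32, h42] at h1
    have : (w2 + w3 + w4) * u2 = 0 := by linear_combination h1
    rw [h0] at this
    have : u2 = 0 := by linarith
    exact hu2 this
  have hDne : D ≠ 0 := by
    intro hD0
    rw [hD0, mul_zero] at e2 e3 e4
    rw [hD] at hD0
    have h43 : u4 = u3 ∨ False := by
      by_cases h : u4 = u3
      · exact Or.inl h
      · right
        have : u3 * u4 * (u4 - u3) = 0 := by linarith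
        rcases mul_eq_zero.mp this with h' | h'
        · rcases mul_eq_zero.mp h' with h'' | h''
          · exact hu3 h''
          · exact hu4 h''
        · exact h (sub_eq_zero.mp h')
    have h42 : u4 = u2 ∨ False := by
      by_cases h : u4 = u2
      · exact Or.inl h
      · right
        have : u2 * u4 * (u4 - u2) = 0 := by linarith
        rcases mul_eq_zero.mp this with h' | h'
        · rcases mul_eq_zero.mp h' with h'' | h''
          · exact hu2 h''
          · exact hu4 h''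
        · exact h (sub_eq_zero.mp h')
    rcases h43 with h43 | h43
    · rcases h42 with h42 | h42
      · exact hall (by rw [← h43, h42]) h42
      · exact h42
    · exact h43
  refine ⟨u2 * u3 * u4 / D, ?_, ?_⟩
  · exact div_ne_zero (mul_ne_zero (mul_ne_zero hu2 hu3) hu4) hDne
  · have h5 : w2 * w3 * w4 * D ^ 2 * D = (u2 * u3 * u4) ^ 2 * D := by
      calc w2 * w3 * w4 * D ^ 2 * D = (w2 * D) * (w3 * D) * (w4 * D) := by ring
        _ = (u2 * u3 * u4) ^ 2 * ((u3 - u2) * (u4 - u2) * (u4 - u3)) := by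
          rw [e2, e3, e4]
          ring
        _ = (u2 * u3 * u4) ^ 2 * D := by rw [hD]
    have h6 : w2 * w3 * w4 * D ^ 2 = (u2 * u3 * u4) ^ 2 := mul_right_cancel₀ hDne h5
    rw [div_pow, eq_div_iff (pow_ne_zero 2 hDne)]
    exact h6

/-- the arithmetic of the degree equation for `p = 2` -/
theorem bl_two_arith (D2 D3 : ℤ) (h2 : (16 : ℤ) ∣ D2 - 1) (h3 : (16 : ℤ) ∣ D3 - 1)
    (h : (1 + D2 + D3) * (D2 * D3 + D2 + D3) = 9 * (D2 * D3)) : D2 = 1 ∧ D3 = 1 := by
  obtain ⟨u, hu⟩ := h2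
  obtain ⟨v, hv⟩ := h3
  have hD2 : D2 = 1 + 16 * u := by linarith
  have hD3 : D3 = 1 + 16 * v := by linarith
  obtain ⟨w, hw⟩ : ∃ w : ℤ, w = u + v := ⟨_, rfl⟩
  obtain ⟨π, hπ⟩ : ∃ π : ℤ, π = D2 * D3 := ⟨_, rfl⟩
  have hs : D2 + D3 = 2 + 16 * w := by
    rw [hD2, hD3, hw]
    ring
  have h' : (1 + (2 + 16 * w)) * (π + (2 + 16 * w)) = 9 * π := by
    rw [hπ, ← hs]
    linear_combination h
  have h36 : (3 - 8 * w) * (π + 16 * w + 11) = 36 := by
    have : 2 * ((3 - 8 * w) * (π + 16 * w + 11) - 36) = 0 := by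
      linear_combination (-1 : ℤ) * h'
    linarith
  have hdvd : (3 - 8 * w) ∣ 36 := Dvd.intro _ h36
  have hb1 : 3 - 8 * w ≤ 36 := Int.le_of_dvd (by norm_num) hdvd
  have hb2 : -(3 - 8 * w) ≤ 36 := Int.le_of_dvd (by norm_num) (neg_dvd.mpr hdvd)
  have hw1 : -4 ≤ w := by omega
  have hw2 : w ≤ 4 := by omega
  obtain ⟨k, hk⟩ : ∃ k : ℤ, k = π + 16 * w + 11 := ⟨_, rfl⟩
  rw [← hk] at h36
  have hw0 : w = 0 := by
    interval_cases w <;> omega
  rw [hw0] at hk hs h36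
  have hπ1 : D2 * D3 = 1 := by
    rw [← hπ]
    omega
  have hs2 : D2 + D3 = 2 := by linarith
  have hsq : (D2 - 1) ^ 2 = 0 := by
    linear_combination (-1 : ℤ) * hπ1 + D2 * hs2
  have hD21 : D2 = 1 := by
    have := pow_eq_zero_iff (two_ne_zero) |>.mp hsq
    linarith
  exact ⟨hD21, by linarith⟩

end Cfsg.Agent.Lib.Helper78
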