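import Mathlib
import Cfsg.Prelude.Def_Blocks
import Cfsg.Agent.Lib.Helper78.BLPackage

/-!
Values of the exceptional characters on `P` and sums over them.
-/

set_option autoImplicit false

namespace Cfsg.Agent.Lib.Helper78

open Cfsg

section data

variable {G : Type*} [Group G] [Finite G] {p : ℕ} [Fact p.Prime] (M : Ideal Cfsg.AlgInt)
  (P : Sylow p G)

omit [Finite G] [Fact p.Prime] in
/-- sums over all linear characters versus sums over the nontrivial ones -/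
theorem bl_sum_ne_one [Fintype ((P : Subgroup G) →* ℂˣ)]
    [Fintype {ψ : (P : Subgroup G) →* ℂˣ // ψ ≠ 1}] (F : ((P : Subgroup G) →* ℂˣ) → ℂ) :
    ∑ ψ : (P : Subgroup G) →* ℂˣ, F ψ =
      F 1 + ∑ ψ : {ψ : (P : Subgroup G) →* ℂˣ // ψ ≠ 1}, F ψ.1 := by
  classical
  rw [← Finset.add_sum_erase Finset.univ F (Finset.mem_univ (1 : (P : Subgroup G) →* ℂˣ))]
  congr 1
  exact Finset.sum_subtype (Finset.univ.erase (1 : (P : Subgroup G) →* ℂˣ))
    (fun x => by simp) F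

omit [Fact p.Prime] in
theorem bl_sum_dual' (hab : IsMulCommutative P)
    [Fintype {ψ : (P : Subgroup G) →* ℂˣ // ψ ≠ 1}] (u : (P : Subgroup G)) [Decidable (u = 1)] :
    ∑ ψ : {ψ : (P : Subgroup G) →* ℂˣ // ψ ≠ 1}, ((ψ.1 u : ℂˣ) : ℂ) =
      (if u = 1 then (Nat.card (P : Subgroup G) : ℂ) else 0) - 1 := by
  classical
  haveI : Finite ((P : Subgroup G) →* ℂˣ) := Cfsg.Agent.Lib.Helper79.finite_monoidHom_units
  haveI : Fintype ((P : Subgroup G) →* ℂˣ) := Fintype.ofFinite _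
  have h1 := bl_sum_dual_ite (bl_comm P hab) u
  rw [bl_sum_ne_one P (fun ψ => ((ψ u : ℂˣ) : ℂ))] at h1
  have h2 : (((1 : (P : Subgroup G) →* ℂˣ) u : ℂˣ) : ℂ) = 1 := by simp
  rw [h2] at h1
  rw [← h1]
  ring

/-- values of the exceptional characters on `P` -/
theorem bl_data_val (hab : IsMulCommutative P) (d δ : ℤ)
    (η : blOrb (P : Subgroup G) → IrrCharacter G) (hD : BLData M P d δ η)
    [Fintype {ψ : (P : Subgroup G) →* ℂˣ // ψ ≠ 1}] [DecidableEq (blOrb (P : Subgroup G))]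
    (q : blOrb (P : Subgroup G)) (w : (P : Subgroup G)) (hw : w ≠ 1) :
    (η q : G → ℂ) w = (d : ℂ) + (δ : ℂ) *
      ∑ ψ : {ψ : (P : Subgroup G) →* ℂˣ // ψ ≠ 1},
        if Quotient.mk (blSetoid (P : Subgroup G)) ψ = q then ((ψ.1 w : ℂˣ) : ℂ) else 0 := by
  classical
  haveI : Finite ((P : Subgroup G) →* ℂˣ) := Cfsg.Agent.Lib.Helper79.finite_monoidHom_units
  haveI : Fintype ((P : Subgroup G) →* ℂˣ) := Fintype.ofFinite _
  obtain ⟨hδ, hinj, hmem, hval, hoth⟩ := hD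
  rw [blA_fourier (P : Subgroup G) (bl_comm P hab) (η q : G → ℂ) w hw,
    bl_sum_ne_one P (fun ψ => blA (P : Subgroup G) (η q : G → ℂ) ψ * ((ψ w : ℂˣ) : ℂ)), blA_one,
    zero_mul, zero_add]
  have h1 : ∀ ψ : {ψ : (P : Subgroup G) →* ℂˣ // ψ ≠ 1},
      blA (P : Subgroup G) (η q : G → ℂ) ψ.1 * ((ψ.1 w : ℂˣ) : ℂ) =
        (d : ℂ) * ((ψ.1 w : ℂˣ) : ℂ) - (δ : ℂ) *
          (if Quotient.mk (blSetoid (P : Subgroup G)) ψ = q then ((ψ.1 w : ℂˣ) : ℂ) else 0) := by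
    intro ψ
    have h2 := hval q ψ
    by_cases hq : q = Quotient.mk (blSetoid (P : Subgroup G)) ψ
    · rw [if_pos hq] at h2
      rw [h2, if_pos hq.symm]
      push_cast
      ring
    · rw [if_neg hq, sub_zero] at h2
      rw [h2, if_neg (fun h => hq h.symm)]
      ring
  rw [Finset.sum_congr rfl (fun ψ _ => h1 ψ), Finset.sum_sub_distrib, ← Finset.mul_sum,
    ← Finset.mul_sum, bl_sum_dual' P hab w, if_neg hw]
  ring

/-- sums over an orbit as averaged sums over the normalizer -/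
theorem bl_orbit_sum (hab : IsMulCommutative P)
    (hfrob : ∀ y : G, y ∈ (P : Subgroup G) → y ≠ 1 → Subgroup.centralizer ({y} : Set G) ⊓
      Subgroup.normalizer ((P : Subgroup G) : Set G) =
        Subgroup.centralizer ((P : Subgroup G) : Set G))
    [Fintype {ψ : (P : Subgroup G) →* ℂˣ // ψ ≠ 1}] [DecidableEq (blOrb (P : Subgroup G))]
    [Fintype (Subgroup.normalizer ((P : Subgroup G) : Set G))]
    (ψ : {ψ : (P : Subgroup G) →* ℂˣ // ψ ≠ 1}) (w : (P : Subgroup G)) :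
    (Nat.card ((Subgroup.centralizer ((P : Subgroup G) : Set G)).subgroupOf
        (Subgroup.normalizer ((P : Subgroup G) : Set G))) : ℂ) *
      ∑ ψ' : {ψ : (P : Subgroup G) →* ℂˣ // ψ ≠ 1},
        (if Quotient.mk (blSetoid (P : Subgroup G)) ψ' = Quotient.mk (blSetoid (P : Subgroup G)) ψ
          then ((ψ'.1 w : ℂˣ) : ℂ) else 0) =
      ∑ n : Subgroup.normalizer ((P : Subgroup G) : Set G),
        ((ψ.1 (blCj (P : Subgroup G) n w) : ℂˣ) : ℂ) := by
  classical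
  haveI : Finite ((P : Subgroup G) →* ℂˣ) := Cfsg.Agent.Lib.Helper79.finite_monoidHom_units
  haveI : Fintype ((P : Subgroup G) →* ℂˣ) := Fintype.ofFinite _
  have h1 : ∑ n : Subgroup.normalizer ((P : Subgroup G) : Set G),
      ((ψ.1 (blCj (P : Subgroup G) n w) : ℂˣ) : ℂ) =
      ∑ n : Subgroup.normalizer ((P : Subgroup G) : Set G),
        (((blActL (P : Subgroup G) n ψ.1) w : ℂˣ) : ℂ) := by
    rw [← Fintype.sum_equiv (Equiv.inv (Subgroup.normalizer ((P : Subgroup G) : Set G)))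
      (fun n => (((blActL (P : Subgroup G) n ψ.1) w : ℂˣ) : ℂ))
      (fun n => ((ψ.1 (blCj (P : Subgroup G) n w) : ℂˣ) : ℂ))]
    intro n
    rw [blActL_apply]
    simp
  have h2 : ∀ n : Subgroup.normalizer ((P : Subgroup G) : Set G),
      (((blActL (P : Subgroup G) n ψ.1) w : ℂˣ) : ℂ) =
        ∑ ψ' : (P : Subgroup G) →* ℂˣ,
          if blActL (P : Subgroup G) n ψ.1 = ψ' then ((ψ' w : ℂˣ) : ℂ) else 0 := by
    intro n
    rw [Finset.sum_ite_eq Finset.univ (blActL (P : Subgroup G) n ψ.1)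
      (fun ψ' => ((ψ' w : ℂˣ) : ℂ)), if_pos (Finset.mem_univ _)]
  rw [h1, Finset.sum_congr rfl (fun n _ => h2 n), Finset.sum_comm]
  have h3 : ∀ ψ' : (P : Subgroup G) →* ℂˣ,
      ∑ n : Subgroup.normalizer ((P : Subgroup G) : Set G),
        (if blActL (P : Subgroup G) n ψ.1 = ψ' then ((ψ' w : ℂˣ) : ℂ) else 0) =
      (Nat.card ((Subgroup.centralizer ((P : Subgroup G) : Set G)).subgroupOf
        (Subgroup.normalizer ((P : Subgroup G) : Set G))) : ℂ) *
        if ∃ n : Subgroup.normalizer ((P : Subgroup G) : Set G),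
          blActL (P : Subgroup G) n ψ.1 = ψ' then ((ψ' w : ℂˣ) : ℂ) else 0 := by
    intro ψ'
    rw [← Finset.sum_filter, Finset.sum_const,
      bl_card_fiber (fun n ψ => blActL (P : Subgroup G) n ψ) (blActL_one (P : Subgroup G))
        (blActL_mul (P : Subgroup G)) ψ.1 ψ' _
        (bl_stabL (P : Subgroup G) (bl_comm P hab) hfrob ψ.1 ψ.2), nsmul_eq_mul]
    by_cases h : ∃ n : Subgroup.normalizer ((P : Subgroup G) : Set G),
        blActL (P : Subgroup G) n ψ.1 = ψ'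
    · rw [if_pos h, if_pos h]
    · rw [if_neg h, if_neg h]
      simp
  rw [Finset.sum_congr rfl (fun ψ' _ => h3 ψ'), ← Finset.mul_sum]
  congr 1
  rw [bl_sum_ne_one P (fun ψ' => if ∃ n : Subgroup.normalizer ((P : Subgroup G) : Set G),
      blActL (P : Subgroup G) n ψ.1 = ψ' then ((ψ' w : ℂˣ) : ℂ) else 0),
    if_neg (fun ⟨n, hn⟩ => blActL_ne_one (P : Subgroup G) n ψ.1 ψ.2 hn), zero_add]
  refine Finset.sum_congr rfl fun ψ' _ => ?_
  have hiff : Quotient.mk (blSetoid (P : Subgroup G)) ψ' = Quotient.mk (blSetoid (P : Subgroup G)) ψ ↔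
      ∃ n : Subgroup.normalizer ((P : Subgroup G) : Set G),
        blActL (P : Subgroup G) n ψ.1 = ψ'.1 := by
    rw [eq_comm]
    exact blOrb_eq_iff (P : Subgroup G) ψ ψ'
  by_cases h : ∃ n : Subgroup.normalizer ((P : Subgroup G) : Set G),
      blActL (P : Subgroup G) n ψ.1 = ψ'.1
  · rw [if_pos h, if_pos (hiff.mpr h)]
  · rw [if_neg h, if_neg (fun h' => h (hiff.mp h'))]

/-- the column sum of the exceptional characters at a nonidentity element of `P` -/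
theorem bl_single (hab : IsMulCommutative P) (δ : ℤ)
    (η : blOrb (P : Subgroup G) → IrrCharacter G) (hD : BLData M P 0 δ η)
    [Fintype (blOrb (P : Subgroup G))] (w : (P : Subgroup G)) (hw : w ≠ 1) :
    ∑ q : blOrb (P : Subgroup G), (η q : G → ℂ) w = -(δ : ℂ) := by
  classical
  haveI : Finite ((P : Subgroup G) →* ℂˣ) := Cfsg.Agent.Lib.Helper79.finite_monoidHom_units
  haveI : Fintype {ψ : (P : Subgroup G) →* ℂˣ // ψ ≠ 1} := Fintype.ofFinite _
  rw [Finset.sum_congr rfl (fun q _ => bl_data_val M P hab 0 δ η hD q w hw)]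
  simp only [Int.cast_zero, zero_add]
  rw [← Finset.mul_sum, Finset.sum_comm]
  have h1 : ∀ ψ : {ψ : (P : Subgroup G) →* ℂˣ // ψ ≠ 1},
      ∑ q : blOrb (P : Subgroup G),
        (if Quotient.mk (blSetoid (P : Subgroup G)) ψ = q then ((ψ.1 w : ℂˣ) : ℂ) else 0) =
      ((ψ.1 w : ℂˣ) : ℂ) := by
    intro ψ
    rw [Finset.sum_ite_eq Finset.univ (Quotient.mk (blSetoid (P : Subgroup G)) ψ)
      (fun _ => ((ψ.1 w : ℂˣ) : ℂ)), if_pos (Finset.mem_univ _)]
  rw [Finset.sum_congr rfl (fun ψ _ => h1 ψ), bl_sum_dual' P hab w, if_neg hw]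
  ring

/-- a triple product sum of the exceptional characters over elements of `P` -/
theorem bl_triple (hab : IsMulCommutative P)
    (hfrob : ∀ y : G, y ∈ (P : Subgroup G) → y ≠ 1 → Subgroup.centralizer ({y} : Set G) ⊓
      Subgroup.normalizer ((P : Subgroup G) : Set G) =
        Subgroup.centralizer ((P : Subgroup G) : Set G))
    (m : ℕ) (hCN : (Subgroup.centralizer ((P : Subgroup G) : Set G)).relIndex
      (Subgroup.normalizer ((P : Subgroup G) : Set G)) = m)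
    (δ : ℤ) (hδ : δ = 1 ∨ δ = -1)
    (η : blOrb (P : Subgroup G) → IrrCharacter G) (hD : BLData M P 0 δ η)
    [Fintype (blOrb (P : Subgroup G))]
    (w₁ w₂ w₃ : (P : Subgroup G)) (hw₁ : w₁ ≠ 1) (hw₂ : w₂ ≠ 1) (hw₃ : w₃ ≠ 1)
    (hne : ∀ n n' : Subgroup.normalizer ((P : Subgroup G) : Set G),
      blCj (P : Subgroup G) n w₁ * blCj (P : Subgroup G) n' w₂ * w₃ ≠ 1) :
    ∑ q : blOrb (P : Subgroup G), (η q : G → ℂ) w₁ * (η q : G → ℂ) w₂ * (η q : G → ℂ) w₃ =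
      -(δ : ℂ) * (m : ℂ) ^ 2 := by
  classical
  haveI : Finite ((P : Subgroup G) →* ℂˣ) := Cfsg.Agent.Lib.Helper79.finite_monoidHom_units
  haveI : Fintype {ψ : (P : Subgroup G) →* ℂˣ // ψ ≠ 1} := Fintype.ofFinite _
  haveI : Fintype (Subgroup.normalizer ((P : Subgroup G) : Set G)) := Fintype.ofFinite _
  obtain ⟨c, hc⟩ : ∃ c : ℂ, c = (Nat.card ((Subgroup.centralizer ((P : Subgroup G) : Set G)).subgroupOf
        (Subgroup.normalizer ((P : Subgroup G) : Set G))) : ℂ) := ⟨_, rfl⟩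
  have hc0 : c ≠ 0 := by
    rw [hc]
    exact_mod_cast Nat.card_pos.ne'
  have hcN : (m : ℂ) * c =
      (Fintype.card (Subgroup.normalizer ((P : Subgroup G) : Set G)) : ℂ) := by
    rw [hc, ← Nat.card_eq_fintype_card, ← hCN]
    exact_mod_cast Subgroup.index_mul_card ((Subgroup.centralizer ((P : Subgroup G) : Set G)).subgroupOf
        (Subgroup.normalizer ((P : Subgroup G) : Set G)))
  obtain ⟨S, hS⟩ : ∃ S : blOrb (P : Subgroup G) → ↥(P : Subgroup G) → ℂ, S = fun q w =>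
      ∑ ψ : {ψ : (P : Subgroup G) →* ℂˣ // ψ ≠ 1},
        if Quotient.mk (blSetoid (P : Subgroup G)) ψ = q then ((ψ.1 w : ℂˣ) : ℂ) else 0 := ⟨_, rfl⟩
  have hval : ∀ (q : blOrb (P : Subgroup G)) (w : (P : Subgroup G)), w ≠ 1 →
      (η q : G → ℂ) w = (δ : ℂ) * S q w := by
    intro q w hw
    rw [bl_data_val M P hab 0 δ η hD q w hw, hS]
    simp
  have hcS : ∀ (ψ : {ψ : (P : Subgroup G) →* ℂˣ // ψ ≠ 1}) (w : (P : Subgroup G)),
      c * S (Quotient.mk (blSetoid (P : Subgroup G)) ψ) w =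
        ∑ n : Subgroup.normalizer ((P : Subgroup G) : Set G),
          ((ψ.1 (blCj (P : Subgroup G) n w) : ℂˣ) : ℂ) := by
    intro ψ w
    rw [hc, hS]
    exact bl_orbit_sum P hab hfrob ψ w
  have hδ3 : (δ : ℂ) * (δ : ℂ) * (δ : ℂ) = (δ : ℂ) := by
    rcases hδ with h | h <;> rw [h] <;> norm_num
  have h1 : ∀ q : blOrb (P : Subgroup G),
      (η q : G → ℂ) w₁ * (η q : G → ℂ) w₂ * (η q : G → ℂ) w₃ =
        (δ : ℂ) * ∑ ψ : {ψ : (P : Subgroup G) →* ℂˣ // ψ ≠ 1},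
          if Quotient.mk (blSetoid (P : Subgroup G)) ψ = q
            then S q w₁ * S q w₂ * ((ψ.1 w₃ : ℂˣ) : ℂ) else 0 := by
    intro q
    rw [hval q w₁ hw₁, hval q w₂ hw₂, hval q w₃ hw₃]
    have h2 : S q w₃ = ∑ ψ : {ψ : (P : Subgroup G) →* ℂˣ // ψ ≠ 1},
        if Quotient.mk (blSetoid (P : Subgroup G)) ψ = q then ((ψ.1 w₃ : ℂˣ) : ℂ) else 0 := by
      rw [hS]
    have h3 : ∑ ψ : {ψ : (P : Subgroup G) →* ℂˣ // ψ ≠ 1},
        (if Quotient.mk (blSetoid (P : Subgroup G)) ψ = q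
          then S q w₁ * S q w₂ * ((ψ.1 w₃ : ℂˣ) : ℂ) else 0) = S q w₁ * S q w₂ * S q w₃ := by
      rw [h2, Finset.mul_sum]
      refine Finset.sum_congr rfl fun ψ _ => ?_
      split_ifs <;> simp
    rw [h3]
    linear_combination (S q w₁ * S q w₂ * S q w₃) * hδ3
  rw [Finset.sum_congr rfl (fun q _ => h1 q), ← Finset.mul_sum, Finset.sum_comm]
  have h4 : ∀ ψ : {ψ : (P : Subgroup G) →* ℂˣ // ψ ≠ 1},
      ∑ q : blOrb (P : Subgroup G),
        (if Quotient.mk (blSetoid (P : Subgroup G)) ψ = q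
          then S q w₁ * S q w₂ * ((ψ.1 w₃ : ℂˣ) : ℂ) else 0) =
      S (Quotient.mk (blSetoid (P : Subgroup G)) ψ) w₁ *
        S (Quotient.mk (blSetoid (P : Subgroup G)) ψ) w₂ * ((ψ.1 w₃ : ℂˣ) : ℂ) := by
    intro ψ
    rw [Finset.sum_ite_eq Finset.univ (Quotient.mk (blSetoid (P : Subgroup G)) ψ)
      (fun q => S q w₁ * S q w₂ * ((ψ.1 w₃ : ℂˣ) : ℂ)), if_pos (Finset.mem_univ _)]
  rw [Finset.sum_congr rfl (fun ψ _ => h4 ψ)]
  have key : ∀ ψ : {ψ : (P : Subgroup G) →* ℂˣ // ψ ≠ 1},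
      c * c * (S (Quotient.mk (blSetoid (P : Subgroup G)) ψ) w₁ *
        S (Quotient.mk (blSetoid (P : Subgroup G)) ψ) w₂ * ((ψ.1 w₃ : ℂˣ) : ℂ)) =
      ∑ n : Subgroup.normalizer ((P : Subgroup G) : Set G),
        ∑ n' : Subgroup.normalizer ((P : Subgroup G) : Set G),
          ((ψ.1 (blCj (P : Subgroup G) n w₁ * blCj (P : Subgroup G) n' w₂ * w₃) : ℂˣ) : ℂ) := by
    intro ψ
    have h5 : c * c * (S (Quotient.mk (blSetoid (P : Subgroup G)) ψ) w₁ *
        S (Quotient.mk (blSetoid (P : Subgroup G)) ψ) w₂ * ((ψ.1 w₃ : ℂˣ) : ℂ)) =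
        (c * S (Quotient.mk (blSetoid (P : Subgroup G)) ψ) w₁) *
          (c * S (Quotient.mk (blSetoid (P : Subgroup G)) ψ) w₂) * ((ψ.1 w₃ : ℂˣ) : ℂ) := by ring
    rw [h5, hcS, hcS, Finset.sum_mul_sum, Finset.sum_mul]
    refine Finset.sum_congr rfl fun n _ => ?_
    rw [Finset.sum_mul]
    refine Finset.sum_congr rfl fun n' _ => ?_
    rw [map_mul, map_mul, Units.val_mul, Units.val_mul]
  have hsum : c * c * ∑ ψ : {ψ : (P : Subgroup G) →* ℂˣ // ψ ≠ 1},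
      S (Quotient.mk (blSetoid (P : Subgroup G)) ψ) w₁ *
        S (Quotient.mk (blSetoid (P : Subgroup G)) ψ) w₂ * ((ψ.1 w₃ : ℂˣ) : ℂ) =
      -((m : ℂ) * c) ^ 2 := by
    rw [Finset.mul_sum, Finset.sum_congr rfl (fun ψ _ => key ψ), Finset.sum_comm]
    have h6 : ∀ n : Subgroup.normalizer ((P : Subgroup G) : Set G),
        ∑ ψ : {ψ : (P : Subgroup G) →* ℂˣ // ψ ≠ 1},
          ∑ n' : Subgroup.normalizer ((P : Subgroup G) : Set G),
            ((ψ.1 (blCj (P : Subgroup G) n w₁ * blCj (P : Subgroup G) n' w₂ * w₃) : ℂˣ) : ℂ) =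
        -(Fintype.card (Subgroup.normalizer ((P : Subgroup G) : Set G)) : ℂ) := by
      intro n
      rw [Finset.sum_comm]
      rw [Finset.sum_congr rfl (fun n' _ => by
        rw [bl_sum_dual' P hab (blCj (P : Subgroup G) n w₁ * blCj (P : Subgroup G) n' w₂ * w₃),
          if_neg (hne n n')])]
      rw [Finset.sum_const, Finset.card_univ]
      simp
    rw [Finset.sum_congr rfl (fun n _ => h6 n), Finset.sum_const, Finset.card_univ, hcN]
    simp only [nsmul_eq_mul]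
    ring
  have hfinal : ∑ ψ : {ψ : (P : Subgroup G) →* ℂˣ // ψ ≠ 1},
      S (Quotient.mk (blSetoid (P : Subgroup G)) ψ) w₁ *
        S (Quotient.mk (blSetoid (P : Subgroup G)) ψ) w₂ * ((ψ.1 w₃ : ℂˣ) : ℂ) = -(m : ℂ) ^ 2 := by
    have h7 : c * c ≠ 0 := mul_ne_zero hc0 hc0
    apply mul_left_cancel₀ h7
    rw [hsum]
    ring
  rw [hfinal]
  ring

/-- a congruence for the degree of a character which is constant on `P \ 1` -/
theorem bl_deg_congr (Q : Subgroup G) (χ : IrrCharacter G) (a : ℤ)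
    (ha : ∀ w : Q, w ≠ 1 → (χ : G → ℂ) w = (a : ℂ)) :
    (Nat.card Q : ℤ) ∣ (Cfsg.charDegree (χ : G → ℂ) : ℤ) - a := by
  classical
  haveI : Fintype Q := Fintype.ofFinite Q
  have hc1 := Cfsg.Agent.Lib.Helper75.isCharacter_res Q
    (Cfsg.Agent.Lib.Helper80.isCharacter_of_isIrrCharacter χ.2)
  obtain ⟨k, hk⟩ := Cfsg.Agent.Lib.Helper75.classInner_char_irr_nat hc1
    (Cfsg.Agent.Lib.Helper80.isIrrCharacter_of_hom (1 : Q →* ℂˣ))
  unfold Cfsg.classInner at hk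
  have hsum : ∑ u : Q, (χ : G → ℂ) u * (starRingEnd ℂ) ((((1 : Q →* ℂˣ) u : ℂˣ) : ℂ)) =
      (Cfsg.charDegree (χ : G → ℂ) : ℂ) + ((Nat.card Q : ℂ) - 1) * (a : ℂ) := by
    rw [← Finset.add_sum_erase Finset.univ _ (Finset.mem_univ (1 : Q))]
    simp only [MonoidHom.one_apply, Units.val_one, map_one, mul_one, OneMemClass.coe_one]
    rw [← Cfsg.Agent.Lib.Helper80.char_one_eq_charDegree
      (Cfsg.Agent.Lib.Helper80.isCharacter_of_isIrrCharacter χ.2)]
    congr 1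
    rw [Finset.sum_congr rfl (fun u hu => ha u (Finset.ne_of_mem_erase hu)), Finset.sum_const,
      Finset.card_erase_of_mem (Finset.mem_univ _), Finset.card_univ, ← Nat.card_eq_fintype_card,
      nsmul_eq_mul, Nat.cast_sub Nat.card_pos]
    simp
  rw [hsum] at hk
  have hQ : (Nat.card Q : ℂ) ≠ 0 := by exact_mod_cast Nat.card_pos.ne'
  have h2 : ((Cfsg.charDegree (χ : G → ℂ) : ℤ) : ℂ) - (a : ℂ) =
      ((Nat.card Q : ℤ) : ℂ) * (((k : ℤ) - a : ℤ) : ℂ) := by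
    push_cast
    field_simp at hk
    linear_combination hk
  have h3 : (Cfsg.charDegree (χ : G → ℂ) : ℤ) - a = (Nat.card Q : ℤ) * ((k : ℤ) - a) := by
    exact_mod_cast h2
  exact ⟨_, h3⟩

end data

end Cfsg.Agent.Lib.Helper78
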