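import Mathlib
import Cfsg.Prelude.Def_Blocks
import Cfsg.Agent.Lib.Helper78.BLPackage
import Cfsg.Agent.Lib.Helper79.ClassMult
import Cfsg.Agent.Lib.Helper80.Orthogonality
import Cfsg.Agent.S0925

/-!
Class multiplication constants and the principal block: if no product of two conjugates of `t`
lies in the `p`-section of `y`, then `∑_{χ ∈ B₀} χ(t)² χ(y) / χ(1) = 0`.
-/

set_option autoImplicit false

namespace Cfsg.Agent.Lib.Helper78

open Cfsg

section star

variable {G : Type*} [Group G] [Finite G] {p : ℕ} [Fact p.Prime] {M : Ideal Cfsg.AlgInt}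

theorem bl_star (hM : Cfsg.IsPModular p M) (t y : G) (hy : ∃ k : ℕ, orderOf y = p ^ k)
    (hV : ∀ g u z : G, IsConj (g * t * g⁻¹ * t) u⁻¹ → Cfsg.IsPPart p u z → ¬ IsConj y z) :
    ∑ᶠ χ ∈ Cfsg.principalBlock M G,
      (χ : G → ℂ) t * (χ : G → ℂ) t / (χ : G → ℂ) 1 * (χ : G → ℂ) y = 0 := by
  classical
  letI : Fintype G := Fintype.ofFinite G
  letI : Fintype (IrrCharacter G) := Fintype.ofFinite _
  obtain ⟨Θ, hΘ⟩ : ∃ Θ : G → ℂ, Θ = ∑ χ : IrrCharacter G,
      ((χ : G → ℂ) t * (χ : G → ℂ) t / (χ : G → ℂ) 1) • (χ : G → ℂ) := ⟨_, rfl⟩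
  have hΘapp : ∀ u : G, Θ u = ∑ χ : IrrCharacter G,
      (χ : G → ℂ) t * (χ : G → ℂ) t / (χ : G → ℂ) 1 * (χ : G → ℂ) u := by
    intro u
    rw [hΘ, Finset.sum_apply]
    rfl
  have hcl : IsClassFunction G Θ := by
    intro g h
    rw [hΘapp, hΘapp]
    refine Finset.sum_congr rfl fun χ _ => ?_
    rw [Cfsg.Agent.Lib.Helper3.isClassFunction_of_isCharacter
      (Cfsg.Agent.Lib.Helper80.isCharacter_of_isIrrCharacter χ.2) g h]
  have hvan : ∀ u z : G, Cfsg.IsPPart p u z → IsConj y z → Θ u = 0 := by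
    intro u z huz hyz
    rw [hΘapp]
    have h1 := Cfsg.Agent.Lib.Helper79.irr_class_mult t t u⁻¹
    rw [inv_inv] at h1
    rw [h1]
    have h2 : Finset.univ.filter (fun g : G => IsConj (g * t * g⁻¹ * t) u⁻¹) = ∅ := by
      rw [Finset.filter_eq_empty_iff]
      intro g _ hg
      exact hV g u z hg huz hyz
    rw [h2]
    simp
  have hpy : Cfsg.IsPPart p y y :=
    ⟨1, mul_one y, Commute.one_right y, hy, by
      rw [orderOf_one]
      exact (Fact.out : p.Prime).one_lt.ne' ∘ Nat.dvd_one.mp⟩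
  have h925 := (Cfsg.Agent.S0925.result (G := G) p M hM).1 Θ hcl y hy hvan
    (Cfsg.principalBlock M G) (Cfsg.Agent.Lib.Helper77.isPBlock_principalBlock M) y y hpy
    (IsConj.refl y)
  have hinner : ∀ χ : IrrCharacter G, Cfsg.classInner Θ (χ : G → ℂ) =
      (χ : G → ℂ) t * (χ : G → ℂ) t / (χ : G → ℂ) 1 := by
    intro χ
    rw [hΘ, Cfsg.Agent.Lib.Helper80.classInner_sum_left]
    have h3 : ∀ χ' ∈ (Finset.univ : Finset (IrrCharacter G)),
        Cfsg.classInner (((χ' : G → ℂ) t * (χ' : G → ℂ) t / (χ' : G → ℂ) 1) • (χ' : G → ℂ))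
          (χ : G → ℂ) =
        if χ' = χ then (χ' : G → ℂ) t * (χ' : G → ℂ) t / (χ' : G → ℂ) 1 else 0 := by
      intro χ' _
      rw [Cfsg.Agent.Lib.Helper80.classInner_smul_left, Cfsg.Agent.Lib.Helper80.classInner_irr]
      split_ifs <;> simp
    rw [Finset.sum_congr rfl h3, Finset.sum_ite_eq' Finset.univ χ, if_pos (Finset.mem_univ _)]
  have h4 : Cfsg.blockPart (Cfsg.principalBlock M G) Θ y =
      ∑ᶠ χ ∈ Cfsg.principalBlock M G,
        (χ : G → ℂ) t * (χ : G → ℂ) t / (χ : G → ℂ) 1 * (χ : G → ℂ) y := by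
    show (∑ᶠ χ ∈ Cfsg.principalBlock M G, Cfsg.classInner Θ (χ : G → ℂ) * (χ : G → ℂ) y) = _
    refine finsum_mem_congr rfl fun χ _ => ?_
    rw [← hinner χ]
  rw [← h4]
  exact h925

end star

end Cfsg.Agent.Lib.Helper78
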