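import Mathlib

/-!
Arithmetic lemmas for the principal 2-block of a group with Klein four Sylow 2-subgroups
whose nonidentity elements are all conjugate.
-/

set_option autoImplicit false

namespace Cfsg.Agent.Lib.Helper78

/-- a set carrying nonzero integers whose squares sum to four, one of them being one -/
theorem v4_X_four {ι : Type*} (X : Set ι) [Finite X] (a : ι → ℤ) (e : ι) (he : e ∈ X)
    (hnz : ∀ χ ∈ X, a χ ≠ 0) (hae : a e = 1) (hsum : ∑ᶠ χ ∈ X, a χ ^ 2 = 4) :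
    ∃ χ₂ χ₃ χ₄ : ι, χ₂ ≠ e ∧ χ₃ ≠ e ∧ χ₄ ≠ e ∧ χ₂ ≠ χ₃ ∧ χ₂ ≠ χ₄ ∧ χ₃ ≠ χ₄ ∧
      X = {e, χ₂, χ₃, χ₄} ∧
      (a χ₂ = 1 ∨ a χ₂ = -1) ∧ (a χ₃ = 1 ∨ a χ₃ = -1) ∧ (a χ₄ = 1 ∨ a χ₄ = -1) := by
  classical
  haveI : Fintype X := Fintype.ofFinite X
  rw [finsum_mem_eq_toFinset_sum _ X] at hsum
  obtain ⟨T, hT⟩ : ∃ T : Finset ι, T = X.toFinset.erase e := ⟨_, rfl⟩
  have hsumT : ∑ χ ∈ T, a χ ^ 2 = 3 := by
    have h : a e ^ 2 + ∑ χ ∈ X.toFinset.erase e, a χ ^ 2 = ∑ χ ∈ X.toFinset, a χ ^ 2 :=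
      Finset.add_sum_erase X.toFinset (fun χ => a χ ^ 2) (Set.mem_toFinset.mpr he)
    rw [hae, ← hT] at h
    linarith
  have hsq : ∀ z : ℤ, z ^ 2 = 1 → z = 1 ∨ z = -1 := by
    intro z hz
    have h1 : (z - 1) * (z + 1) = 0 := by linear_combination hz
    rcases mul_eq_zero.mp h1 with h | h
    · left; linarith
    · right; linarith
  have hall : ∀ χ ∈ T, a χ ^ 2 = 1 := by
    intro χ hχ
    by_contra hne
    have hχ' := hχ
    rw [hT, Finset.mem_erase, Set.mem_toFinset] at hχ'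
    have h0 := hnz χ hχ'.2
    have h4 : 4 ≤ a χ ^ 2 := by
      rcases lt_or_gt_of_ne h0 with h | h
      · have h2 : a χ ≤ -2 := by
          by_contra h'
          have h3 : a χ = -1 := by omega
          apply hne
          rw [h3]
          norm_num
        nlinarith
      · have h2 : 2 ≤ a χ := by
          by_contra h'
          have h3 : a χ = 1 := by omega
          apply hne
          rw [h3]
          norm_num
        nlinarith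
    have h5 := Finset.single_le_sum (f := fun χ => a χ ^ 2) (fun i _ => sq_nonneg (a i)) hχ
    linarith
  have hcard : T.card = 3 := by
    have h := Finset.sum_congr (rfl : T = T) hall
    rw [hsumT, Finset.sum_const, nsmul_eq_mul, mul_one] at h
    exact_mod_cast h.symm
  obtain ⟨χ₂, χ₃, χ₄, h23, h24, h34, hT3⟩ := Finset.card_eq_three.mp hcard
  have hm2 : χ₂ ∈ T := by rw [hT3]; simp
  have hm3 : χ₃ ∈ T := by rw [hT3]; simp
  have hm4 : χ₄ ∈ T := by rw [hT3]; simp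
  have hm2' := hm2
  have hm3' := hm3
  have hm4' := hm4
  rw [hT, Finset.mem_erase, Set.mem_toFinset] at hm2' hm3' hm4'
  refine ⟨χ₂, χ₃, χ₄, hm2'.1, hm3'.1, hm4'.1, h23, h24, h34, ?_, hsq _ (hall _ hm2),
    hsq _ (hall _ hm3), hsq _ (hall _ hm4)⟩
  ext x
  simp only [Set.mem_insert_iff, Set.mem_singleton_iff]
  constructor
  · intro hx
    by_cases hxe : x = e
    · exact Or.inl hxe
    · right
      have hxT : x ∈ T := by
        rw [hT, Finset.mem_erase, Set.mem_toFinset]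
        exact ⟨hxe, hx⟩
      rw [hT3, Finset.mem_insert, Finset.mem_insert, Finset.mem_singleton] at hxT
      exact hxT
  · rintro (rfl | rfl | rfl | rfl)
    · exact he
    · exact hm2'.2
    · exact hm3'.2
    · exact hm4'.2

/-- a finite sum over a set with four elements -/
theorem v4_finsum_four {ι M : Type*} [AddCommMonoid M] (F : ι → M) (a b c d : ι)
    (hab : a ≠ b) (hac : a ≠ c) (had : a ≠ d) (hbc : b ≠ c) (hbd : b ≠ d) (hcd : c ≠ d) :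
    ∑ᶠ i ∈ ({a, b, c, d} : Set ι), F i = F a + F b + F c + F d := by
  rw [finsum_mem_insert F (by simp [hab, hac, had]) (by simp),
    finsum_mem_insert F (by simp [hbc, hbd]) (by simp),
    finsum_mem_pair hcd]
  simp only [add_assoc]

/-- the case where one of the three parameters is minus one -/
theorem v4_arith_neg (E₂ E₃ k : ℤ) (hsum : E₂ + E₃ = 2)
    (heq : E₂ * E₃ * (12 - k) = 9) : (E₂ = 1 ∨ E₃ = 1) ∨ k = 15 := by
  have h3 : E₃ = 2 - E₂ := by linarith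
  subst h3
  have hdvd : E₂ ∣ 9 := ⟨(2 - E₂) * (12 - k), by linear_combination -heq⟩
  have h1 : E₂ ≤ 9 := Int.le_of_dvd (by norm_num) hdvd
  have h2 : -E₂ ≤ 9 := Int.le_of_dvd (by norm_num) ((Int.neg_dvd).mpr hdvd)
  have h3 : -9 ≤ E₂ := by linarith
  interval_cases E₂ <;> omega

/-- the main arithmetic lemma, in normalized form -/
theorem v4_arith_E (E₂ E₃ E₄ k : ℤ) (ho2 : E₂ % 2 = 1) (ho3 : E₃ % 2 = 1) (ho4 : E₄ % 2 = 1)
    (hsum : E₂ + E₃ + E₄ = 1) (hk : k % 6 = 3)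
    (heq : (8 - k) * (E₂ * E₃ * E₄) = 4 * (E₂ * E₃ + E₂ * E₄ + E₃ * E₄) - 1) :
    (E₂ = 1 ∨ E₃ = 1 ∨ E₄ = 1) ∨ k = 15 := by
  by_cases h2 : E₂ = -1
  · subst h2
    have hs : E₃ + E₄ = 2 := by linarith
    rcases v4_arith_neg E₃ E₄ k hs (by linear_combination -heq + 4 * hs) with h | h
    · rcases h with h | h
      · exact Or.inl (Or.inr (Or.inl h))
      · exact Or.inl (Or.inr (Or.inr h))
    · exact Or.inr h
  by_cases h3 : E₃ = -1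
  · subst h3
    have hs : E₂ + E₄ = 2 := by linarith
    rcases v4_arith_neg E₂ E₄ k hs (by linear_combination -heq + 4 * hs) with h | h
    · rcases h with h | h
      · exact Or.inl (Or.inl h)
      · exact Or.inl (Or.inr (Or.inr h))
    · exact Or.inr h
  by_cases h4 : E₄ = -1
  · subst h4
    have hs : E₂ + E₃ = 2 := by linarith
    rcases v4_arith_neg E₂ E₃ k hs (by linear_combination -heq + 4 * hs) with h | h
    · rcases h with h | h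
      · exact Or.inl (Or.inl h)
      · exact Or.inl (Or.inr (Or.inl h))
    · exact Or.inr h
  by_contra hcon
  push Not at hcon
  obtain ⟨⟨h21, h31, h41⟩, hk15⟩ := hcon
  -- all of absolute value at least three
  have hA : 3 ≤ |E₂| := by
    rcases abs_cases E₂ with ⟨h, _⟩ | ⟨h, _⟩ <;> rw [h] <;> omega
  have hB : 3 ≤ |E₃| := by
    rcases abs_cases E₃ with ⟨h, _⟩ | ⟨h, _⟩ <;> rw [h] <;> omega
  have hC : 3 ≤ |E₄| := by
    rcases abs_cases E₄ with ⟨h, _⟩ | ⟨h, _⟩ <;> rw [h] <;> omega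
  -- the congruence modulo four
  have hk4 : k % 4 = 3 := by
    obtain ⟨m₂, hm₂⟩ : ∃ m : ℤ, E₂ = 2 * m + 1 := ⟨E₂ / 2, by omega⟩
    obtain ⟨m₃, hm₃⟩ : ∃ m : ℤ, E₃ = 2 * m + 1 := ⟨E₃ / 2, by omega⟩
    obtain ⟨m₄, hm₄⟩ : ∃ m : ℤ, E₄ = 2 * m + 1 := ⟨E₄ / 2, by omega⟩
    have hm : m₂ + m₃ + m₄ = -1 := by
      rw [hm₂, hm₃, hm₄] at hsum
      linarith
    obtain ⟨q, hq⟩ : ∃ q : ℤ, E₂ * E₃ * E₄ = 4 * q - 1 :=
      ⟨2 * m₂ * m₃ * m₄ + (m₂ * m₃ + m₂ * m₄ + m₃ * m₄), by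
        rw [hm₂, hm₃, hm₄]
        linear_combination 2 * hm⟩
    obtain ⟨S, hS⟩ : ∃ S : ℤ, S = E₂ * E₃ + E₂ * E₄ + E₃ * E₄ := ⟨_, rfl⟩
    obtain ⟨kq, hkq⟩ : ∃ kq : ℤ, kq = k * q := ⟨_, rfl⟩
    rw [hq, ← hS] at heq
    have h5 : 32 * q - 8 - 4 * kq + k = 4 * S - 1 := by
      rw [hkq]
      linear_combination heq
    omega
  -- the bound
  obtain ⟨A, hAd⟩ : ∃ A : ℤ, A = |E₂| := ⟨_, rfl⟩
  obtain ⟨B, hBd⟩ : ∃ B : ℤ, B = |E₃| := ⟨_, rfl⟩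
  obtain ⟨C, hCd⟩ : ∃ C : ℤ, C = |E₄| := ⟨_, rfl⟩
  rw [← hAd] at hA
  rw [← hBd] at hB
  rw [← hCd] at hC
  have habs : |8 - k| * (A * B * C) = |4 * (E₂ * E₃ + E₂ * E₄ + E₃ * E₄) - 1| := by
    rw [← heq, abs_mul, abs_mul, abs_mul, hAd, hBd, hCd]
  have hle : |4 * (E₂ * E₃ + E₂ * E₄ + E₃ * E₄) - 1| ≤ 4 * (A * B + A * C + B * C) + 1 := by
    have h1 : |4 * (E₂ * E₃ + E₂ * E₄ + E₃ * E₄) - 1| ≤
        |4 * (E₂ * E₃ + E₂ * E₄ + E₃ * E₄)| + |(1 : ℤ)| := abs_sub _ _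
    have h2 : |4 * (E₂ * E₃ + E₂ * E₄ + E₃ * E₄)| = 4 * |E₂ * E₃ + E₂ * E₄ + E₃ * E₄| := by
      rw [abs_mul]; norm_num
    have h3 : |E₂ * E₃ + E₂ * E₄ + E₃ * E₄| ≤ |E₂ * E₃| + |E₂ * E₄| + |E₃ * E₄| :=
      abs_add_three _ _ _
    rw [abs_mul, abs_mul, abs_mul, ← hAd, ← hBd, ← hCd] at h3
    rw [h2] at h1
    have h4 : |(1 : ℤ)| = 1 := abs_one
    linarith
  have hk' : |8 - k| ≤ 4 := by
    by_contra hgt
    have h5 : 5 ≤ |8 - k| := by omega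
    have hAB : 0 < A * B := by positivity
    have hABC : 27 ≤ A * B * C := by nlinarith
    have h6 : 5 * (A * B * C) ≤ |8 - k| * (A * B * C) := by nlinarith
    have h7 : 3 * (A * B) ≤ A * B * C := by nlinarith
    have h8 : 3 * (A * C) ≤ A * B * C := by nlinarith
    have h9 : 3 * (B * C) ≤ A * B * C := by nlinarith
    nlinarith
  have hk1 := abs_le.mp hk'
  omega

/-- passing to the normalized parameter -/
theorem v4_arith_aux (a f : ℤ) (ha : a = 1 ∨ a = -1) (hc : (4 : ℤ) ∣ f - a) :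
    ∃ E : ℤ, E % 2 = 1 ∧ a * f = 2 * E - 1 := by
  obtain ⟨q, hq⟩ := hc
  rcases ha with rfl | rfl
  · exact ⟨2 * q + 1, by omega, by linarith⟩
  · exact ⟨1 - 2 * q, by omega, by linarith⟩

/-- the main arithmetic lemma -/
theorem v4_arith (a₂ a₃ a₄ f₂ f₃ f₄ k : ℤ)
    (ha₂ : a₂ = 1 ∨ a₂ = -1) (ha₃ : a₃ = 1 ∨ a₃ = -1) (ha₄ : a₄ = 1 ∨ a₄ = -1)
    (hf₂ : 0 < f₂) (hf₃ : 0 < f₃) (hf₄ : 0 < f₄)
    (hc₂ : (4 : ℤ) ∣ f₂ - a₂) (hc₃ : (4 : ℤ) ∣ f₃ - a₃) (hc₄ : (4 : ℤ) ∣ f₄ - a₄)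
    (hsum : 1 + a₂ * f₂ + a₃ * f₃ + a₄ * f₄ = 0) (hk : k % 6 = 3)
    (heq : k * (f₂ * f₃ * f₄ + a₂ * f₃ * f₄ + a₃ * f₂ * f₄ + a₄ * f₂ * f₃) =
      8 * (f₂ * f₃ * f₄)) :
    ((a₂ = 1 ∧ f₂ = 1) ∨ (a₃ = 1 ∧ f₃ = 1) ∨ (a₄ = 1 ∧ f₄ = 1)) ∨ k = 15 := by
  obtain ⟨E₂, ho2, hE2⟩ := v4_arith_aux a₂ f₂ ha₂ hc₂
  obtain ⟨E₃, ho3, hE3⟩ := v4_arith_aux a₃ f₃ ha₃ hc₃
  obtain ⟨E₄, ho4, hE4⟩ := v4_arith_aux a₄ f₄ ha₄ hc₄
  have hsumE : E₂ + E₃ + E₄ = 1 := by linarith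
  have key : k * ((a₂ * f₂) * (a₃ * f₃) * (a₄ * f₄) + (a₂ * f₂) * (a₃ * f₃) +
      (a₂ * f₂) * (a₄ * f₄) + (a₃ * f₃) * (a₄ * f₄)) =
      8 * ((a₂ * f₂) * (a₃ * f₃) * (a₄ * f₄)) := by
    rcases ha₂ with rfl | rfl <;> rcases ha₃ with rfl | rfl <;> rcases ha₄ with rfl | rfl <;>
      first | linear_combination heq | linear_combination -heq
  rw [hE2, hE3, hE4] at key
  have h8 : 8 * ((8 - k) * (E₂ * E₃ * E₄)) =
      8 * (4 * (E₂ * E₃ + E₂ * E₄ + E₃ * E₄) - 1) := by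
    linear_combination (-1 : ℤ) * key - (2 * k + 16) * hsumE
  have hE := Int.eq_of_mul_eq_mul_left (by norm_num) h8
  have hone : ∀ a f E : ℤ, (a = 1 ∨ a = -1) → 0 < f → a * f = 2 * E - 1 → E = 1 →
      a = 1 ∧ f = 1 := by
    intro a f E ha hf h hE1
    rw [hE1] at h
    rcases ha with rfl | rfl
    · exact ⟨rfl, by linarith⟩
    · exfalso
      linarith
  rcases v4_arith_E E₂ E₃ E₄ k ho2 ho3 ho4 hsumE hk hE with h | h
  · left
    rcases h with h | h | h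
    · exact Or.inl (hone a₂ f₂ E₂ ha₂ hf₂ hE2 h)
    · exact Or.inr (Or.inl (hone a₃ f₃ E₃ ha₃ hf₃ hE3 h))
    · exact Or.inr (Or.inr (hone a₄ f₄ E₄ ha₄ hf₄ hE4 h))
  · exact Or.inr h

end Cfsg.Agent.Lib.Helper78
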