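import Mathlib
import Cfsg.Prelude.Def_Blocks
import Cfsg.Agent.Lib.Helper78.BLGroup
import Cfsg.Agent.Lib.Helper78.BlockOrth
import Cfsg.Agent.Lib.Helper78.SecondMainChar
import Cfsg.Agent.Lib.Helper32.SylowConj

/-!
Counting products of two involutions with even order in a group with Klein four Sylow
2-subgroups all of whose involution centralizers are 2-closed.
-/

set_option autoImplicit false

namespace Cfsg.Agent.Lib.Helper78

open Cfsg

section v4count

variable {G : Type*} [Group G] [Finite G] (P : Sylow 2 G)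

/-- a product of two conjugates of the involution `t` has even order exactly when the two
conjugates are distinct elements of the same Sylow 2-subgroup -/
theorem v4_sing_iff (hK : IsKleinFour ↥(P : Subgroup G))
    (hfrobS : ∀ y ∈ (P : Subgroup G), y ≠ 1 → Subgroup.centralizer ({y} : Set G) =
      Subgroup.centralizer ((P : Subgroup G) : Set G))
    (hL2 : ∀ w : G, w * w = 1 → w ∈ Subgroup.centralizer ((P : Subgroup G) : Set G) →
      w ∈ (P : Subgroup G))
    (t : G) (htP : t ∈ (P : Subgroup G)) (ht1 : t ≠ 1) (g : G) :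
    2 ∣ orderOf (g * t * g⁻¹ * t) ↔
      (g * t * g⁻¹ ∈ (P : Subgroup G) ∧ g * t * g⁻¹ ≠ t) := by
  haveI := hK
  have hexp : ∀ w ∈ (P : Subgroup G), w * w = 1 := fun w hw =>
    congrArg Subtype.val (IsKleinFour.mul_self (⟨w, hw⟩ : (P : Subgroup G)))
  have hcomm : ∀ a b : G, a ∈ (P : Subgroup G) → b ∈ (P : Subgroup G) → a * b = b * a := by
    intro a b ha hb
    have := (IsKleinFour.isMulCommutative (G := ↥(P : Subgroup G))).is_comm.comm ⟨a, ha⟩ ⟨b, hb⟩
    exact congrArg Subtype.val this
  obtain ⟨u, hu⟩ : ∃ u : G, u = g * t * g⁻¹ := ⟨_, rfl⟩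
  rw [← hu]
  have htt : t * t = 1 := hexp t htP
  have huu : u * u = 1 := by
    rw [hu]
    calc g * t * g⁻¹ * (g * t * g⁻¹) = g * (t * t) * g⁻¹ := by group
      _ = 1 := by rw [htt]; group
  have htinv : t⁻¹ = t := inv_eq_of_mul_eq_one_left htt
  have huinv : u⁻¹ = u := inv_eq_of_mul_eq_one_left huu
  constructor
  · intro hsing
    obtain ⟨y, hhy⟩ := exists_isPPart Nat.prime_two (u * t)
    have hy1 : y ≠ 1 := isPPart_ne_one_of_singular hsing hhy
    obtain ⟨c, hc, -⟩ := isPPart_zpow_eq Nat.prime_two hhy hhy 1 (by norm_num)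
    rw [pow_one] at hc
    obtain ⟨y', -, -, ⟨k, hk⟩, -⟩ := hhy
    have hyk : y ^ 2 ^ k = 1 := by
      rw [← hk]
      exact pow_orderOf_eq_one y
    obtain ⟨c₀, -, hc₀⟩ := Cfsg.Agent.Lib.Helper32.exists_conj_mem_sylow_of_mem ⊤ P le_top y
      (Subgroup.mem_top y) ⟨k, hyk⟩
    have hy₀1 : c₀ * y * c₀⁻¹ ≠ 1 := by
      intro h
      apply hy1
      have : y = c₀⁻¹ * (c₀ * y * c₀⁻¹) * c₀ := by group
      rw [this, h]
      group
    have hyy : y * y = 1 := by
      have h := hexp _ hc₀
      have : y * y = c₀⁻¹ * ((c₀ * y * c₀⁻¹) * (c₀ * y * c₀⁻¹)) * c₀ := by group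
      rw [this, h]
      group
    have hyinv : y⁻¹ = y := inv_eq_of_mul_eq_one_left hyy
    have hth : t * (u * t) * t⁻¹ = (u * t)⁻¹ := by
      calc t * (u * t) * t⁻¹ = t * u := by group
        _ = t⁻¹ * u⁻¹ := by rw [htinv, huinv]
        _ = (u * t)⁻¹ := (mul_inv_rev u t).symm
    have huh : u * (u * t) * u⁻¹ = (u * t)⁻¹ := by
      calc u * (u * t) * u⁻¹ = (u * u) * t * u⁻¹ := by group
        _ = t * u := by rw [huu, one_mul, huinv]
        _ = t⁻¹ * u⁻¹ := by rw [htinv, huinv]
        _ = (u * t)⁻¹ := (mul_inv_rev u t).symm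
    have hty : t * y * t⁻¹ = y := by
      rw [← hc, ← conj_zpow, hth, inv_zpow, hc, hyinv]
    have huy : u * y * u⁻¹ = y := by
      rw [← hc, ← conj_zpow, huh, inv_zpow, hc, hyinv]
    -- conjugating into `P`
    have hmemP : ∀ v : G, v * v = 1 → v * y * v⁻¹ = y → c₀ * v * c₀⁻¹ ∈ (P : Subgroup G) := by
      intro v hvv hvy
      apply hL2
      · calc c₀ * v * c₀⁻¹ * (c₀ * v * c₀⁻¹) = c₀ * (v * v) * c₀⁻¹ := by group
          _ = 1 := by rw [hvv]; group
      · rw [← hfrobS _ hc₀ hy₀1, Subgroup.mem_centralizer_iff]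
        intro h hh
        rw [Set.mem_singleton_iff] at hh
        rw [hh]
        calc c₀ * y * c₀⁻¹ * (c₀ * v * c₀⁻¹) = c₀ * (y * v) * c₀⁻¹ := by group
          _ = c₀ * ((v * y * v⁻¹) * v) * c₀⁻¹ := by rw [hvy]
          _ = c₀ * v * c₀⁻¹ * (c₀ * y * c₀⁻¹) := by group
    have h1 := hcomm _ _ (hmemP t htt hty) (hmemP u huu huy)
    have htu : t * u = u * t := by
      calc t * u = c₀⁻¹ * ((c₀ * t * c₀⁻¹) * (c₀ * u * c₀⁻¹)) * c₀ := by group
        _ = c₀⁻¹ * ((c₀ * u * c₀⁻¹) * (c₀ * t * c₀⁻¹)) * c₀ := by rw [h1]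
        _ = u * t := by group
    refine ⟨?_, ?_⟩
    · apply hL2 u huu
      rw [← hfrobS t htP ht1, Subgroup.mem_centralizer_iff]
      intro h hh
      rw [Set.mem_singleton_iff] at hh
      rw [hh]
      exact htu
    · intro h
      rw [h, htt, orderOf_one] at hsing
      omega
  · rintro ⟨huP, hut⟩
    have hmem : u * t ∈ (P : Subgroup G) := Subgroup.mul_mem _ huP htP
    have hne : u * t ≠ 1 := by
      intro h
      apply hut
      rw [← htinv]
      exact eq_inv_of_mul_eq_one_left h
    have h2 : orderOf (u * t) = 2 := orderOf_eq_prime (by rw [sq]; exact hexp _ hmem) hne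
    rw [h2]

/-- the number of conjugating elements giving a product of even order -/
theorem v4_card_sing [Fintype G] (hK : IsKleinFour ↥(P : Subgroup G))
    (hfrobS : ∀ y ∈ (P : Subgroup G), y ≠ 1 → Subgroup.centralizer ({y} : Set G) =
      Subgroup.centralizer ((P : Subgroup G) : Set G))
    (hL2 : ∀ w : G, w * w = 1 → w ∈ Subgroup.centralizer ((P : Subgroup G) : Set G) →
      w ∈ (P : Subgroup G))
    (hconj : ∀ u v : G, orderOf u = 2 → orderOf v = 2 → IsConj u v)
    (t : G) (htP : t ∈ (P : Subgroup G)) (ht1 : t ≠ 1) :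
    (Finset.univ.filter (fun g : G => 2 ∣ orderOf (g * t * g⁻¹ * t))).card =
      2 * Nat.card (Subgroup.centralizer ({t} : Set G)) := by
  classical
  haveI := hK
  letI : Fintype ↥(P : Subgroup G) := Fintype.ofFinite _
  have hexp : ∀ w ∈ (P : Subgroup G), w * w = 1 := fun w hw =>
    congrArg Subtype.val (IsKleinFour.mul_self (⟨w, hw⟩ : (P : Subgroup G)))
  have hord : ∀ w ∈ (P : Subgroup G), w ≠ 1 → orderOf w = 2 := fun w hw hw1 =>
    orderOf_eq_prime (by rw [sq]; exact hexp w hw) hw1
  obtain ⟨s, -, hs⟩ := Finset.exists_mem_notMem_of_card_lt_card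
    (s := ({1, ⟨t, htP⟩} : Finset (P : Subgroup G))) (t := Finset.univ) (by
      rw [Finset.card_univ, IsKleinFour.card_four']
      exact lt_of_le_of_lt (Finset.card_insert_le _ _) (by simp))
  rw [Finset.mem_insert, Finset.mem_singleton, not_or] at hs
  obtain ⟨hs1, hst⟩ := hs
  have ht1' : (⟨t, htP⟩ : (P : Subgroup G)) ≠ 1 := fun h => ht1 (congrArg Subtype.val h)
  have huniv := IsKleinFour.eq_finset_univ ht1' hs1 (fun h => hst h.symm)
  have hsG1 : (s : G) ≠ 1 := fun h => hs1 (Subtype.ext h)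
  have hsGt : (s : G) ≠ t := fun h => hst (Subtype.ext h)
  have htt : t * t = 1 := hexp t htP
  have key : ∀ g : G, 2 ∣ orderOf (g * t * g⁻¹ * t) ↔
      (g * t * g⁻¹ = (s : G) ∨ g * t * g⁻¹ = t * (s : G)) := by
    intro g
    rw [v4_sing_iff P hK hfrobS hL2 t htP ht1 g]
    constructor
    · rintro ⟨h1, h2⟩
      have hmem : (⟨g * t * g⁻¹, h1⟩ : (P : Subgroup G)) ∈
          ({⟨t, htP⟩ * s, ⟨t, htP⟩, s, 1} : Finset (P : Subgroup G)) := by
        rw [huniv]
        exact Finset.mem_univ _
      simp only [Finset.mem_insert, Finset.mem_singleton] at hmem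
      rcases hmem with h | h | h | h
      · right
        exact congrArg Subtype.val h
      · exact absurd (congrArg Subtype.val h) h2
      · left
        exact congrArg Subtype.val h
      · exfalso
        have h3 : g * t * g⁻¹ = 1 := congrArg Subtype.val h
        apply ht1
        have : t = g⁻¹ * (g * t * g⁻¹) * g := by group
        rw [this, h3]
        group
    · rintro (h | h)
      · rw [h]
        exact ⟨s.2, hsGt⟩
      · rw [h]
        refine ⟨Subgroup.mul_mem _ htP s.2, ?_⟩
        intro h'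
        apply hsG1
        have : (s : G) = t⁻¹ * (t * (s : G)) := by group
        rw [this, h']
        group
  rw [Finset.filter_congr (fun g _ => key g), Finset.filter_or]
  have hS : ∀ a : G, a * t * a⁻¹ = t ↔ a ∈ Subgroup.centralizer ({t} : Set G) := by
    intro a
    rw [Subgroup.mem_centralizer_iff]
    constructor
    · intro h b hb
      rw [Set.mem_singleton_iff] at hb
      rw [hb]
      calc t * a = (a * t * a⁻¹) * a := by rw [h]
        _ = a * t := by group
    · intro h
      have h2 := h t (Set.mem_singleton t)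
      rw [← h2]
      group
  have hfib : ∀ x' : G, orderOf x' = 2 →
      (Finset.univ.filter (fun a : G => a * t * a⁻¹ = x')).card =
        Nat.card (Subgroup.centralizer ({t} : Set G)) := by
    intro x' hx'
    have h := bl_card_fiber (fun (a : G) (x : G) => a * x * a⁻¹) (fun x => by simp)
      (fun a b x => by simp [mul_assoc]) t x' (Subgroup.centralizer ({t} : Set G)) hS
    rw [h, if_pos (isConj_iff.mp (hconj t x' (hord t htP ht1) hx'))]
  have hts1 : t * (s : G) ≠ 1 := by
    intro h
    apply hsGt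
    have : (s : G) = t⁻¹ * (t * (s : G)) := by group
    rw [this, h, mul_one]
    exact inv_eq_of_mul_eq_one_left htt
  rw [Finset.card_union_of_disjoint, hfib _ (hord _ s.2 hsG1),
    hfib _ (hord _ (Subgroup.mul_mem _ htP s.2) hts1)]
  · ring
  · rw [Finset.disjoint_filter]
    intro a _ h1 h2
    rw [h1] at h2
    apply ht1
    have : t = (t * (s : G)) * (s : G)⁻¹ := by group
    rw [this, ← h2]
    group

end v4count

end Cfsg.Agent.Lib.Helper78
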