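import Mathlib
import Cfsg.Prelude.Def_Blocks
import Cfsg.Agent.Lib.Helper78.BLStar
import Cfsg.Agent.Lib.Helper78.BLData
import Cfsg.Agent.Lib.Helper78.BLArith
import Cfsg.Agent.Lib.Helper78.V4Arith
import Cfsg.Agent.Lib.Helper78.V4Count

/-!
The principal 2-block of a group with Klein four Sylow 2-subgroups, one class of involutions and
2-closed involution centralizers.
-/

set_option autoImplicit false

namespace Cfsg.Agent.Lib.Helper78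

open Cfsg

section v4block

variable {G : Type*} [Group G] [Finite G] (M : Ideal Cfsg.AlgInt) (P : Sylow 2 G)

/-- characters of the principal block are constant on the elements of even order -/
theorem v4_value (hM : Cfsg.IsPModular 2 M) (hK : IsKleinFour ↥(P : Subgroup G))
    (hfrobS : ∀ y ∈ (P : Subgroup G), y ≠ 1 → Subgroup.centralizer ({y} : Set G) =
      Subgroup.centralizer ((P : Subgroup G) : Set G))
    (hconj : ∀ u v : G, orderOf u = 2 → orderOf v = 2 → IsConj u v)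
    (t : G) (htP : t ∈ (P : Subgroup G)) (ht1 : t ≠ 1)
    (χ : IrrCharacter G) (hχ : χ ∈ Cfsg.principalBlock M G) (z : G) (hz : 2 ∣ orderOf z) :
    (χ : G → ℂ) z = (χ : G → ℂ) t := by
  haveI := hK
  have hexp : ∀ w ∈ (P : Subgroup G), w * w = 1 := fun w hw =>
    congrArg Subtype.val (IsKleinFour.mul_self (⟨w, hw⟩ : (P : Subgroup G)))
  have hord : ∀ w ∈ (P : Subgroup G), w ≠ 1 → orderOf w = 2 := fun w hw hw1 =>
    orderOf_eq_prime (by rw [sq]; exact hexp w hw) hw1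
  have hab' : ∀ a b : (P : Subgroup G), a * b = b * a := fun a b =>
    (IsKleinFour.isMulCommutative (G := ↥(P : Subgroup G))).is_comm.comm a b
  have hfrob : ∀ y : G, y ∈ (P : Subgroup G) → y ≠ 1 → Subgroup.centralizer ({y} : Set G) ⊓
      Subgroup.normalizer ((P : Subgroup G) : Set G) =
        Subgroup.centralizer ((P : Subgroup G) : Set G) := by
    intro y hy hy1
    rw [hfrobS y hy hy1]
    exact inf_eq_left.mpr (Subgroup.centralizer_le_normalizer _)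
  have hchar := Cfsg.Agent.Lib.Helper80.isCharacter_of_isIrrCharacter χ.2
  obtain ⟨y, hzy⟩ := exists_isPPart Nat.prime_two z
  have hy1 : y ≠ 1 := isPPart_ne_one_of_singular hz hzy
  have hzy' := hzy
  obtain ⟨y', -, -, ⟨k, hk⟩, -⟩ := hzy'
  have hyk : y ^ 2 ^ k = 1 := by
    rw [← hk]
    exact pow_orderOf_eq_one y
  obtain ⟨c₀, -, hc₀⟩ := Cfsg.Agent.Lib.Helper32.exists_conj_mem_sylow_of_mem ⊤ P le_top y
    (Subgroup.mem_top y) ⟨k, hyk⟩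
  have hy₀1 : c₀ * y * c₀⁻¹ ≠ 1 := by
    intro h
    apply hy1
    have : y = c₀⁻¹ * (c₀ * y * c₀⁻¹) * c₀ := by group
    rw [this, h]
    group
  have h1 := bl_value P hM hab' hfrob χ hχ (c₀ * z * c₀⁻¹) (c₀ * y * c₀⁻¹)
    (isPPart_conj hzy c₀) hc₀ hy₀1
  rw [Cfsg.Agent.Lib.Helper80.char_conj_eq hchar z c₀] at h1
  rw [h1]
  exact Cfsg.Agent.Lib.Helper80.char_isConj_eq hchar
    (hconj _ _ (hord _ hc₀ hy₀1) (hord t htP ht1))

set_option maxHeartbeats 1000000 in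
/-- the structure of the principal block -/
theorem v4_block (hM : Cfsg.IsPModular 2 M) (hK : IsKleinFour ↥(P : Subgroup G))
    (hfrobS : ∀ y ∈ (P : Subgroup G), y ≠ 1 → Subgroup.centralizer ({y} : Set G) =
      Subgroup.centralizer ((P : Subgroup G) : Set G))
    (hL2 : ∀ w : G, w * w = 1 → w ∈ Subgroup.centralizer ((P : Subgroup G) : Set G) →
      w ∈ (P : Subgroup G))
    (hconj : ∀ u v : G, orderOf u = 2 → orderOf v = 2 → IsConj u v)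
    (t : G) (htP : t ∈ (P : Subgroup G)) (ht1 : t ≠ 1) :
    ∃ (χ₂ χ₃ χ₄ : IrrCharacter G) (a₂ a₃ a₄ : ℤ),
      χ₂ ≠ Cfsg.Agent.Lib.Helper77.trivIrr G ∧ χ₃ ≠ Cfsg.Agent.Lib.Helper77.trivIrr G ∧
      χ₄ ≠ Cfsg.Agent.Lib.Helper77.trivIrr G ∧
      (a₂ = 1 ∨ a₂ = -1) ∧ (a₃ = 1 ∨ a₃ = -1) ∧ (a₄ = 1 ∨ a₄ = -1) ∧
      (χ₂ : G → ℂ) t = (a₂ : ℂ) ∧ (χ₃ : G → ℂ) t = (a₃ : ℂ) ∧ (χ₄ : G → ℂ) t = (a₄ : ℂ) ∧
      (4 : ℤ) ∣ (Cfsg.charDegree (χ₂ : G → ℂ) : ℤ) - a₂ ∧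
      (4 : ℤ) ∣ (Cfsg.charDegree (χ₃ : G → ℂ) : ℤ) - a₃ ∧
      (4 : ℤ) ∣ (Cfsg.charDegree (χ₄ : G → ℂ) : ℤ) - a₄ ∧
      1 + a₂ * (Cfsg.charDegree (χ₂ : G → ℂ) : ℤ) + a₃ * (Cfsg.charDegree (χ₃ : G → ℂ) : ℤ) +
        a₄ * (Cfsg.charDegree (χ₄ : G → ℂ) : ℤ) = 0 ∧
      (Nat.card G : ℤ) *
        ((Cfsg.charDegree (χ₂ : G → ℂ) : ℤ) * (Cfsg.charDegree (χ₃ : G → ℂ) : ℤ) *
            (Cfsg.charDegree (χ₄ : G → ℂ) : ℤ) +
          a₂ * (Cfsg.charDegree (χ₃ : G → ℂ) : ℤ) * (Cfsg.charDegree (χ₄ : G → ℂ) : ℤ) +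
          a₃ * (Cfsg.charDegree (χ₂ : G → ℂ) : ℤ) * (Cfsg.charDegree (χ₄ : G → ℂ) : ℤ) +
          a₄ * (Cfsg.charDegree (χ₂ : G → ℂ) : ℤ) * (Cfsg.charDegree (χ₃ : G → ℂ) : ℤ)) =
        8 * (Nat.card (Subgroup.centralizer ({t} : Set G)) : ℤ) *
          ((Cfsg.charDegree (χ₂ : G → ℂ) : ℤ) * (Cfsg.charDegree (χ₃ : G → ℂ) : ℤ) *
            (Cfsg.charDegree (χ₄ : G → ℂ) : ℤ)) := by
  classical
  haveI := hK
  letI : Fintype G := Fintype.ofFinite G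
  letI : Fintype (IrrCharacter G) := Fintype.ofFinite _
  have hexp : ∀ w ∈ (P : Subgroup G), w * w = 1 := fun w hw =>
    congrArg Subtype.val (IsKleinFour.mul_self (⟨w, hw⟩ : (P : Subgroup G)))
  have hord : ∀ w ∈ (P : Subgroup G), w ≠ 1 → orderOf w = 2 := fun w hw hw1 =>
    orderOf_eq_prime (by rw [sq]; exact hexp w hw) hw1
  have hab' : ∀ a b : (P : Subgroup G), a * b = b * a := fun a b =>
    (IsKleinFour.isMulCommutative (G := ↥(P : Subgroup G))).is_comm.comm a b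
  have hfrob : ∀ y : G, y ∈ (P : Subgroup G) → y ≠ 1 → Subgroup.centralizer ({y} : Set G) ⊓
      Subgroup.normalizer ((P : Subgroup G) : Set G) =
        Subgroup.centralizer ((P : Subgroup G) : Set G) := by
    intro y hy hy1
    rw [hfrobS y hy hy1]
    exact inf_eq_left.mpr (Subgroup.centralizer_le_normalizer _)
  have hcard : Nat.card (P : Subgroup G) = 4 := IsKleinFour.card_four
  have ht2 : orderOf t = 2 := hord t htP ht1
  have htt : t * t = 1 := hexp t htP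
  have htinv : t⁻¹ = t := inv_eq_of_mul_eq_one_left htt
  have hchar : ∀ χ : IrrCharacter G, IsCharacter G (χ : G → ℂ) := fun χ =>
    Cfsg.Agent.Lib.Helper80.isCharacter_of_isIrrCharacter χ.2
  have hBfin : (Cfsg.principalBlock M G).Finite := Set.toFinite _
  -- integer values
  choose a ha using fun χ : IrrCharacter G => bl_char_invol_int (hchar χ) t ht2
  -- the sum of squares
  have hK4 := bl_K P hM hab' hfrob t t htP ht1 htP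
  rw [if_pos (IsConj.refl t), hcard, htinv] at hK4
  have hsum4 : ∑ᶠ χ ∈ Cfsg.principalBlock M G, a χ ^ 2 = 4 := by
    rw [finsum_mem_eq_finite_toFinset_sum _ hBfin]
    rw [finsum_mem_eq_finite_toFinset_sum _ hBfin] at hK4
    have h1 : ((∑ χ ∈ hBfin.toFinset, a χ ^ 2 : ℤ) : ℂ) = ((4 : ℤ) : ℂ) := by
      push_cast
      rw [show (4 : ℂ) = ((4 : ℕ) : ℂ) by norm_num, ← hK4]
      refine Finset.sum_congr rfl fun χ _ => ?_
      rw [ha χ]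
      ring
    exact_mod_cast h1
  have hsum0 := bl_K P hM hab' hfrob t 1 htP ht1 (Subgroup.one_mem _)
  rw [if_neg (fun hc => ht1 (isConj_one_left.mp hc)), inv_one] at hsum0
  have htriv : Cfsg.Agent.Lib.Helper77.trivIrr G ∈ Cfsg.principalBlock M G :=
    Cfsg.Agent.Lib.Helper77.trivIrr_mem_principalBlock hM.2.1.isPrime
  have hatriv : a (Cfsg.Agent.Lib.Helper77.trivIrr G) = 1 := by
    have h := ha (Cfsg.Agent.Lib.Helper77.trivIrr G)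
    rw [Cfsg.Agent.Lib.Helper77.trivIrr_apply] at h
    exact_mod_cast h.symm
  have hnz : ∀ χ ∈ Cfsg.principalBlock M G, a χ ≠ 0 := by
    intro χ hχ h0
    apply bl_ne_zero P hM hab' χ hχ t htP
    rw [ha χ, h0]
    simp
  obtain ⟨χ₂, χ₃, χ₄, hne2, hne3, hne4, h23, h24, h34, hBeq, ha2, ha3, ha4⟩ :=
    v4_X_four (Cfsg.principalBlock M G) a (Cfsg.Agent.Lib.Helper77.trivIrr G) htriv hnz hatriv
      hsum4
  have hsplit : ∀ F : IrrCharacter G → ℂ, ∑ᶠ χ ∈ Cfsg.principalBlock M G, F χ =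
      F (Cfsg.Agent.Lib.Helper77.trivIrr G) + F χ₂ + F χ₃ + F χ₄ := by
    intro F
    rw [hBeq]
    exact v4_finsum_four F _ _ _ _ (Ne.symm hne2) (Ne.symm hne3) (Ne.symm hne4) h23 h24 h34
  -- degrees
  have hf₂ := Cfsg.Agent.Lib.Helper80.char_one_eq_charDegree (hchar χ₂)
  have hf₃ := Cfsg.Agent.Lib.Helper80.char_one_eq_charDegree (hchar χ₃)
  have hf₄ := Cfsg.Agent.Lib.Helper80.char_one_eq_charDegree (hchar χ₄)
  have hf₂pos := Cfsg.Agent.Lib.Helper80.charDegree_pos χ₂.2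
  have hf₃pos := Cfsg.Agent.Lib.Helper80.charDegree_pos χ₃.2
  have hf₄pos := Cfsg.Agent.Lib.Helper80.charDegree_pos χ₄.2
  have hcong : ∀ χ : IrrCharacter G, (4 : ℤ) ∣ (Cfsg.charDegree (χ : G → ℂ) : ℤ) - a χ := by
    intro χ
    have h := bl_deg_congr (P : Subgroup G) χ (a χ) (fun w hw => by
      rw [← ha χ]
      exact Cfsg.Agent.Lib.Helper80.char_isConj_eq (hchar χ)
        (hconj _ _ (hord w w.2 (fun h => hw (Subtype.ext h))) ht2))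
    rw [hcard] at h
    exact_mod_cast h
  obtain ⟨f₂, hf₂def⟩ : ∃ f₂ : ℕ, Cfsg.charDegree (χ₂ : G → ℂ) = f₂ := ⟨_, rfl⟩
  obtain ⟨f₃, hf₃def⟩ : ∃ f₃ : ℕ, Cfsg.charDegree (χ₃ : G → ℂ) = f₃ := ⟨_, rfl⟩
  obtain ⟨f₄, hf₄def⟩ : ∃ f₄ : ℕ, Cfsg.charDegree (χ₄ : G → ℂ) = f₄ := ⟨_, rfl⟩
  have hc₂ := hcong χ₂
  have hc₃ := hcong χ₃
  have hc₄ := hcong χ₄
  rw [hf₂def] at hf₂ hf₂pos hc₂
  rw [hf₃def] at hf₃ hf₃pos hc₃
  rw [hf₄def] at hf₄ hf₄pos hc₄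
  refine ⟨χ₂, χ₃, χ₄, a χ₂, a χ₃, a χ₄, hne2, hne3, hne4, ha2, ha3, ha4, ha χ₂, ha χ₃, ha χ₄,
    ?_, ?_, ?_, ?_, ?_⟩
  · rw [hf₂def]; exact hc₂
  · rw [hf₃def]; exact hc₃
  · rw [hf₄def]; exact hc₄
  · rw [hf₂def, hf₃def, hf₄def]
    rw [hsplit (fun χ => (χ : G → ℂ) t * (χ : G → ℂ) 1)] at hsum0
    simp only [Cfsg.Agent.Lib.Helper77.trivIrr_apply] at hsum0
    rw [ha χ₂, ha χ₃, ha χ₄, hf₂, hf₃, hf₄] at hsum0
    have h : ((1 + a χ₂ * (f₂ : ℤ) + a χ₃ * (f₃ : ℤ) + a χ₄ * (f₄ : ℤ) : ℤ) : ℂ) =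
        ((0 : ℤ) : ℂ) := by
      push_cast
      linear_combination hsum0
    exact_mod_cast h
  · rw [hf₂def, hf₃def, hf₄def]
    have hcount := v4_card_sing P hK hfrobS hL2 hconj t htP ht1
    have hinner : ∀ g : G, ∑ᶠ χ ∈ Cfsg.principalBlock M G,
        (χ : G → ℂ) (g * t * g⁻¹ * t) * (χ : G → ℂ) t⁻¹ =
        if 2 ∣ orderOf (g * t * g⁻¹ * t) then ((4 : ℕ) : ℂ) else 0 := by
      intro g
      split_ifs with h
      · rw [finsum_mem_congr rfl (fun χ hχ => by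
          rw [v4_value M P hM hK hfrobS hconj t htP ht1 χ hχ _ h] :
          ∀ χ ∈ Cfsg.principalBlock M G, (χ : G → ℂ) (g * t * g⁻¹ * t) * (χ : G → ℂ) t⁻¹ =
            (χ : G → ℂ) t * (χ : G → ℂ) t⁻¹), htinv]
        exact hK4
      · exact block_orth_sum hM _ (Cfsg.Agent.Lib.Helper77.isPBlock_principalBlock M)
          (isPPart_one_of_regular h) (bl_isPPart_self P t htP)
          (fun hc => ht1 (isConj_one_right.mp hc))
    have hD : ∑ᶠ χ ∈ Cfsg.principalBlock M G,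
        ((Nat.card G : ℂ) * (χ : G → ℂ) t * (χ : G → ℂ) t / (χ : G → ℂ) 1) * (χ : G → ℂ) t⁻¹ =
        ((2 * Nat.card (Subgroup.centralizer ({t} : Set G)) : ℕ) : ℂ) * ((4 : ℕ) : ℂ) := by
      have h1 : ∀ χ ∈ Cfsg.principalBlock M G,
          ((Nat.card G : ℂ) * (χ : G → ℂ) t * (χ : G → ℂ) t / (χ : G → ℂ) 1) *
            (χ : G → ℂ) t⁻¹ =
          ∑ g : G, (χ : G → ℂ) (g * t * g⁻¹ * t) * (χ : G → ℂ) t⁻¹ := by
        intro χ _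
        rw [← Finset.sum_mul, Cfsg.Agent.Lib.Helper79.irr_sum_conj_mul χ.2 t t]
      rw [finsum_mem_congr rfl h1, finsum_mem_eq_finite_toFinset_sum _ hBfin, Finset.sum_comm]
      have h2 : ∀ g ∈ (Finset.univ : Finset G),
          ∑ χ ∈ hBfin.toFinset, (χ : G → ℂ) (g * t * g⁻¹ * t) * (χ : G → ℂ) t⁻¹ =
          if 2 ∣ orderOf (g * t * g⁻¹ * t) then ((4 : ℕ) : ℂ) else 0 := by
        intro g _
        rw [← finsum_mem_eq_finite_toFinset_sum _ hBfin]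
        exact hinner g
      rw [Finset.sum_congr rfl h2, Finset.sum_ite, Finset.sum_const, Finset.sum_const_zero,
        add_zero, nsmul_eq_mul, hcount]
    rw [hsplit] at hD
    simp only [Cfsg.Agent.Lib.Helper77.trivIrr_apply] at hD
    rw [htinv, ha χ₂, ha χ₃, ha χ₄, hf₂, hf₃, hf₄] at hD
    have hA : ∀ z : ℤ, (z = 1 ∨ z = -1) → (z : ℂ) * (z : ℂ) = 1 := by
      intro z hz
      rcases hz with h | h <;> rw [h] <;> norm_num
    have hA2 := hA _ ha2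
    have hA3 := hA _ ha3
    have hA4 := hA _ ha4
    have hf₂c : (f₂ : ℂ) ≠ 0 := by exact_mod_cast hf₂pos.ne'
    have hf₃c : (f₃ : ℂ) ≠ 0 := by exact_mod_cast hf₃pos.ne'
    have hf₄c : (f₄ : ℂ) ≠ 0 := by exact_mod_cast hf₄pos.ne'
    have hDc : (Nat.card G : ℂ) * ((f₂ : ℂ) * f₃ * f₄ + (a χ₂ : ℂ) * f₃ * f₄ +
        (a χ₃ : ℂ) * f₂ * f₄ + (a χ₄ : ℂ) * f₂ * f₃) =
        8 * (Nat.card (Subgroup.centralizer ({t} : Set G)) : ℂ) * ((f₂ : ℂ) * f₃ * f₄) := by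
      obtain ⟨N, hN⟩ : ∃ N : ℂ, N = (Nat.card G : ℂ) := ⟨_, rfl⟩
      obtain ⟨C, hC⟩ : ∃ C : ℂ, C = (Nat.card (Subgroup.centralizer ({t} : Set G)) : ℂ) :=
        ⟨_, rfl⟩
      obtain ⟨A₂, hA₂d⟩ : ∃ A₂ : ℂ, A₂ = (a χ₂ : ℂ) := ⟨_, rfl⟩
      obtain ⟨A₃, hA₃d⟩ : ∃ A₃ : ℂ, A₃ = (a χ₃ : ℂ) := ⟨_, rfl⟩
      obtain ⟨A₄, hA₄d⟩ : ∃ A₄ : ℂ, A₄ = (a χ₄ : ℂ) := ⟨_, rfl⟩
      obtain ⟨F₂, hF₂d⟩ : ∃ F₂ : ℂ, F₂ = (f₂ : ℂ) := ⟨_, rfl⟩
      obtain ⟨F₃, hF₃d⟩ : ∃ F₃ : ℂ, F₃ = (f₃ : ℂ) := ⟨_, rfl⟩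
      obtain ⟨F₄, hF₄d⟩ : ∃ F₄ : ℂ, F₄ = (f₄ : ℂ) := ⟨_, rfl⟩
      push_cast at hD
      rw [← hN, ← hC, ← hA₂d, ← hA₃d, ← hA₄d, ← hF₂d, ← hF₃d, ← hF₄d] at hD
      rw [← hN, ← hC, ← hA₂d, ← hA₃d, ← hA₄d, ← hF₂d, ← hF₃d, ← hF₄d]
      rw [← hA₂d] at hA2
      rw [← hA₃d] at hA3
      rw [← hA₄d] at hA4
      rw [← hF₂d] at hf₂c
      rw [← hF₃d] at hf₃c
      rw [← hF₄d] at hf₄c
      have e2 : N * A₂ * A₂ / F₂ * A₂ = N * A₂ / F₂ := by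
        rw [mul_assoc N A₂ A₂, hA2, mul_one]
        ring
      have e3 : N * A₃ * A₃ / F₃ * A₃ = N * A₃ / F₃ := by
        rw [mul_assoc N A₃ A₃, hA3, mul_one]
        ring
      have e4 : N * A₄ * A₄ / F₄ * A₄ = N * A₄ / F₄ := by
        rw [mul_assoc N A₄ A₄, hA4, mul_one]
        ring
      rw [e2, e3, e4] at hD
      have h : F₂ * F₃ * F₄ * (N * 1 * 1 / 1 * 1 + N * A₂ / F₂ + N * A₃ / F₃ + N * A₄ / F₄) =
          F₂ * F₃ * F₄ * (2 * C * 4) := by rw [hD]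
      have e : F₂ * F₃ * F₄ * (N * 1 * 1 / 1 * 1 + N * A₂ / F₂ + N * A₃ / F₃ + N * A₄ / F₄) =
          N * (F₂ * F₃ * F₄ + A₂ * F₃ * F₄ + A₃ * F₂ * F₄ + A₄ * F₂ * F₃) := by
        field_simp
      rw [e] at h
      rw [h]
      ring
    exact_mod_cast hDc

end v4block

end Cfsg.Agent.Lib.Helper78
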