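import Mathlib
import Cfsg.Agent.Lib.Helper55.ThreeInv
import Cfsg.Agent.Lib.Helper78.BLGroup

/-!
Group theoretic set-up: a simple group with an involution whose centralizer has a normal
Klein four Sylow 2-subgroup.
-/

set_option autoImplicit false

namespace Cfsg.Agent.Lib.Helper78

section v4group

variable {G : Type*} [Group G] [Finite G]

/-- 2-elements of a group with a normal subgroup of odd index lie in that subgroup -/
theorem v4_mem_of_normal_odd (C S₀ : Subgroup G) (hodd : ¬ 2 ∣ S₀.relIndex C)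
    (hn : (S₀.subgroupOf C).Normal) (w : G) (hw : w ∈ C) (k : ℕ) (hwk : w ^ 2 ^ k = 1) :
    w ∈ S₀ := by
  haveI := hn
  obtain ⟨q, hq⟩ : ∃ q : C ⧸ S₀.subgroupOf C,
      q = QuotientGroup.mk' (S₀.subgroupOf C) ⟨w, hw⟩ := ⟨_, rfl⟩
  have h1 : q ^ 2 ^ k = 1 := by
    rw [hq, ← map_pow]
    have h : (⟨w, hw⟩ : C) ^ 2 ^ k = 1 := Subtype.ext (by rw [Subgroup.coe_pow]; exact hwk)
    rw [h, map_one]
  have h2 : orderOf q ∣ 2 ^ k := orderOf_dvd_of_pow_eq_one h1
  have h3 : orderOf q ∣ S₀.relIndex C := orderOf_dvd_natCard q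
  have h5 : Nat.Coprime (2 ^ k) (S₀.relIndex C) :=
    Nat.Coprime.pow_left _ ((Nat.Prime.coprime_iff_not_dvd Nat.prime_two).mpr hodd)
  have h6 : orderOf q = 1 := Nat.eq_one_of_dvd_coprimes h5 h2 h3
  rw [orderOf_eq_one_iff, hq, QuotientGroup.mk'_apply, QuotientGroup.eq_one_iff] at h6
  exact Subgroup.mem_subgroupOf.mp h6

/-- a power of an element lands in a normal subgroup -/
theorem v4_pow_mem_of_normal (C S₀ : Subgroup G) (hn : (S₀.subgroupOf C).Normal) (g : G)
    (hg : g ∈ C) : g ^ S₀.relIndex C ∈ S₀ := by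
  haveI := hn
  have h1 : (QuotientGroup.mk' (S₀.subgroupOf C) ⟨g, hg⟩) ^ S₀.relIndex C = 1 :=
    pow_card_eq_one'
  rw [← map_pow, QuotientGroup.mk'_apply, QuotientGroup.eq_one_iff,
    Subgroup.mem_subgroupOf] at h1
  simpa using h1

/-- the set-up -/
theorem v4_setup [IsSimpleGroup G] (x : G) (hx : orderOf x = 2)
    (S₀ : Subgroup G) (hle : S₀ ≤ Subgroup.centralizer ({x} : Set G)) (hK : IsKleinFour ↥S₀)
    (hodd : ¬ 2 ∣ S₀.relIndex (Subgroup.centralizer ({x} : Set G)))
    (hn : (S₀.subgroupOf (Subgroup.centralizer ({x} : Set G))).Normal) :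
    ∃ P : Sylow 2 G, x ∈ (P : Subgroup G) ∧ IsKleinFour ↥(P : Subgroup G) ∧
      (∀ w ∈ (P : Subgroup G), w * w = 1) ∧
      (∀ y ∈ (P : Subgroup G), y ≠ 1 → Subgroup.centralizer ({y} : Set G) =
        Subgroup.centralizer ((P : Subgroup G) : Set G)) ∧
      (∀ w : G, w * w = 1 → w ∈ Subgroup.centralizer ((P : Subgroup G) : Set G) →
        w ∈ (P : Subgroup G)) ∧
      (Subgroup.centralizer ((P : Subgroup G) : Set G)).relIndex
        (Subgroup.normalizer ((P : Subgroup G) : Set G)) = 3 ∧
      (∀ u v : G, orderOf u = 2 → orderOf v = 2 → IsConj u v) := by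
  classical
  haveI : Fact (Nat.Prime 2) := ⟨Nat.prime_two⟩
  have hxx : x * x = 1 := by rw [← sq, ← hx, pow_orderOf_eq_one]
  have hx1 : x ≠ 1 := by
    intro h
    rw [h, orderOf_one] at hx
    omega
  have hxC : x ∈ Subgroup.centralizer ({x} : Set G) := by
    rw [Subgroup.mem_centralizer_iff]
    intro h hh
    rw [Set.mem_singleton_iff] at hh
    rw [hh]
  have hmem2 : ∀ w ∈ Subgroup.centralizer ({x} : Set G), ∀ k : ℕ, w ^ 2 ^ k = 1 → w ∈ S₀ :=
    fun w hw k hwk => v4_mem_of_normal_odd _ S₀ hodd hn w hw k hwk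
  have hxS : x ∈ S₀ := hmem2 x hxC 1 (by rw [pow_one, sq]; exact hxx)
  have hcard : Nat.card S₀ = 4 := hK.card_four
  have hexp : ∀ w ∈ S₀, w * w = 1 := by
    intro w hw
    have := IsKleinFour.mul_self (⟨w, hw⟩ : S₀)
    exact congrArg Subtype.val this
  haveI : Finite ↥S₀ := inferInstance
  -- at most three involutions in the centralizer
  have h3 : Nat.card {u : ↥(Subgroup.centralizer ({x} : Set G)) // orderOf u = 2} ≤ 3 := by
    have hmemu : ∀ u : {u : ↥(Subgroup.centralizer ({x} : Set G)) // orderOf u = 2},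
        (u.1 : G) ∈ S₀ := by
      intro u
      apply hmem2 _ u.1.2 1
      have h := pow_orderOf_eq_one u.1
      rw [u.2] at h
      rw [pow_one, ← Subgroup.coe_pow, h, Subgroup.coe_one]
    have hne : ∀ u : {u : ↥(Subgroup.centralizer ({x} : Set G)) // orderOf u = 2},
        (⟨(u.1 : G), hmemu u⟩ : S₀) ≠ 1 := by
      intro u h
      have h1 : (u.1 : G) = 1 := congrArg Subtype.val h
      have h2 : u.1 = 1 := Subtype.ext h1
      have h3 := u.2
      rw [h2, orderOf_one] at h3
      omega
    have hinj : Function.Injective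
        (fun u : {u : ↥(Subgroup.centralizer ({x} : Set G)) // orderOf u = 2} =>
          (⟨⟨(u.1 : G), hmemu u⟩, hne u⟩ : {w : S₀ // w ≠ 1})) := by
      intro u u' h
      have h1 : (u.1 : G) = (u'.1 : G) :=
        congrArg (fun w : {w : S₀ // w ≠ 1} => ((w.1 : S₀) : G)) h
      exact Subtype.ext (Subtype.ext h1)
    have hc3 : Nat.card {w : S₀ // w ≠ 1} = 3 := by
      have h1 : Nat.card (Option {w : S₀ // w ≠ 1}) = Nat.card S₀ :=
        Nat.card_congr (Equiv.optionSubtypeNe (1 : S₀))
      rw [Finite.card_option, hcard] at h1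
      omega
    calc Nat.card {u : ↥(Subgroup.centralizer ({x} : Set G)) // orderOf u = 2}
        ≤ Nat.card {w : S₀ // w ≠ 1} := Nat.card_le_card_of_injective _ hinj
      _ = 3 := hc3
  obtain ⟨⟨S, hS⟩, hconj⟩ := Cfsg.Agent.Lib.Helper55.simple_three_involutions x hx h3
  have hSle : (S : Subgroup G) ≤ S₀ := by
    intro w hw
    obtain ⟨k, hk⟩ := S.isPGroup' ⟨w, hw⟩
    apply hmem2 w (hS hw) k
    have := congrArg Subtype.val hk
    simpa using this
  have hpg : IsPGroup 2 S₀ := IsPGroup.of_card (n := 2) (by rw [hcard]; norm_num)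
  have hP : S₀ = (S : Subgroup G) := S.is_maximal' hpg hSle
  subst hP
  haveI := hK
  have hcomm : ∀ a b : G, a ∈ (S : Subgroup G) → b ∈ (S : Subgroup G) → a * b = b * a := by
    intro a b ha hb
    have h1 := hexp (a * b) (Subgroup.mul_mem _ ha hb)
    have h2 := hexp a ha
    have h3 := hexp b hb
    have ha' : a⁻¹ = a := inv_eq_of_mul_eq_one_left h2
    have hb' : b⁻¹ = b := inv_eq_of_mul_eq_one_left h3
    have hab' : (a * b)⁻¹ = a * b := inv_eq_of_mul_eq_one_left h1
    calc a * b = (a * b)⁻¹ := hab'.symm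
      _ = b⁻¹ * a⁻¹ := mul_inv_rev a b
      _ = b * a := by rw [ha', hb']
  have hab : IsMulCommutative (S : Subgroup G) :=
    ⟨⟨fun a b => Subtype.ext (hcomm a b a.2 b.2)⟩⟩
  have hnorm : ∀ g ∈ Subgroup.centralizer ({x} : Set G), ∀ w ∈ (S : Subgroup G),
      g * w * g⁻¹ ∈ (S : Subgroup G) := by
    intro g hg w hw
    have h := hn.conj_mem ⟨w, hle hw⟩ (Subgroup.mem_subgroupOf.mpr hw) ⟨g, hg⟩
    exact Subgroup.mem_subgroupOf.mp h
  have hxg : ∀ g ∈ Subgroup.centralizer ({x} : Set G), g * x * g⁻¹ = x := by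
    intro g hg
    have h := Subgroup.mem_centralizer_iff.mp hg x (Set.mem_singleton x)
    rw [← h, mul_inv_cancel_right]
  have hsq : ∀ g ∈ Subgroup.centralizer ({x} : Set G), ∀ w ∈ (S : Subgroup G),
      (g * g) * w * (g * g)⁻¹ = w := by
    intro g hg w hw
    by_cases hw1 : w = 1
    · rw [hw1]
      group
    by_cases hwx : w = x
    · rw [hwx]
      calc (g * g) * x * (g * g)⁻¹ = g * (g * x * g⁻¹) * g⁻¹ := by group
        _ = x := by rw [hxg g hg, hxg g hg]
    have hw' := hnorm g hg w hw
    have hwe : w = g⁻¹ * (g * w * g⁻¹) * g := by group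
    have hw'1 : g * w * g⁻¹ ≠ 1 := by
      intro h
      apply hw1
      rw [hwe, h]
      group
    have hw'x : g * w * g⁻¹ ≠ x := by
      intro h
      apply hwx
      rw [hwe, h]
      have h2 := hxg g hg
      calc g⁻¹ * x * g = g⁻¹ * (g * x * g⁻¹) * g := by rw [h2]
        _ = x := by group
    by_cases hfix : g * w * g⁻¹ = w
    · calc (g * g) * w * (g * g)⁻¹ = g * (g * w * g⁻¹) * g⁻¹ := by group
        _ = w := by rw [hfix, hfix]
    · have hmul : (⟨g * w * g⁻¹, hw'⟩ : (S : Subgroup G)) = ⟨x, hxS⟩ * ⟨w, hw⟩ :=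
        IsKleinFour.eq_mul_of_ne_all (x := (⟨x, hxS⟩ : (S : Subgroup G))) (y := ⟨w, hw⟩)
          (z := ⟨g * w * g⁻¹, hw'⟩)
          (fun h => hx1 (congrArg Subtype.val h)) (fun h => hw1 (congrArg Subtype.val h))
          (fun h => hwx (congrArg Subtype.val h).symm) (fun h => hw'1 (congrArg Subtype.val h))
          (fun h => hw'x (congrArg Subtype.val h)) (fun h => hfix (congrArg Subtype.val h))
      have hmul' : g * w * g⁻¹ = x * w := congrArg Subtype.val hmul
      calc (g * g) * w * (g * g)⁻¹ = g * (g * w * g⁻¹) * g⁻¹ := by group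
        _ = g * (x * w) * g⁻¹ := by rw [hmul']
        _ = (g * x * g⁻¹) * (g * w * g⁻¹) := by group
        _ = x * (x * w) := by rw [hxg g hg, hmul']
        _ = w := by rw [← mul_assoc, hxx, one_mul]
  have hCx : Subgroup.centralizer ({x} : Set G) =
      Subgroup.centralizer ((S : Subgroup G) : Set G) := by
    apply le_antisymm
    · intro g hg
      have hm := v4_pow_mem_of_normal _ (S : Subgroup G) hn g hg
      obtain ⟨m, hmdef⟩ : ∃ m : ℕ,
          m = (S : Subgroup G).relIndex (Subgroup.centralizer ({x} : Set G)) := ⟨_, rfl⟩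
      rw [← hmdef] at hm hodd
      obtain ⟨j, hj⟩ : ∃ j, m = 2 * j + 1 := ⟨m / 2, by omega⟩
      rw [Subgroup.mem_centralizer_iff]
      intro w hw
      have hc1 : Commute (g * g) w := by
        have := hsq g hg w hw
        show (g * g) * w = w * (g * g)
        calc (g * g) * w = ((g * g) * w * (g * g)⁻¹) * (g * g) := by group
          _ = w * (g * g) := by rw [this]
      have hc2 : Commute (g ^ m) w := hcomm _ _ hm hw
      have hc3 : Commute ((g * g) ^ j) w := hc1.pow_left j
      have h4 : g = ((g * g) ^ j)⁻¹ * g ^ m := by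
        rw [hj, pow_succ, pow_mul, sq, inv_mul_cancel_left]
      have hc4 : Commute g w := by
        rw [h4]
        exact (hc3.inv_left).mul_left hc2
      exact hc4.eq.symm
    · intro g hg
      rw [Subgroup.mem_centralizer_iff] at hg ⊢
      intro h hh
      rw [Set.mem_singleton_iff] at hh
      rw [hh]
      exact hg x hxS
  have hfrobS : ∀ y ∈ (S : Subgroup G), y ≠ 1 → Subgroup.centralizer ({y} : Set G) =
      Subgroup.centralizer ((S : Subgroup G) : Set G) := by
    intro y hy hy1
    have hy2 : orderOf y = 2 := orderOf_eq_prime (by rw [sq]; exact hexp y hy) hy1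
    have hc := hconj x y hx hy2
    obtain ⟨n, hn'⟩ := bl_fusion S hab ⟨x, hxS⟩ ⟨y, hy⟩ hc
    have hny : (n : G) * x * (n : G)⁻¹ = y := by
      have := congrArg Subtype.val hn'
      rwa [blCj_coe] at this
    apply le_antisymm
    · intro g hg
      have h1 : (n : G)⁻¹ * g * (n : G) ∈ Subgroup.centralizer ({x} : Set G) := by
        rw [Subgroup.mem_centralizer_iff]
        intro h hh
        rw [Set.mem_singleton_iff] at hh
        rw [hh]
        have h2 := Subgroup.mem_centralizer_iff.mp hg y (Set.mem_singleton y)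
        rw [← hny] at h2
        calc x * ((n : G)⁻¹ * g * (n : G))
            = (n : G)⁻¹ * ((n : G) * x * (n : G)⁻¹ * g) * (n : G) := by group
          _ = (n : G)⁻¹ * (g * ((n : G) * x * (n : G)⁻¹)) * (n : G) := by rw [h2]
          _ = (n : G)⁻¹ * g * (n : G) * x := by group
      rw [hCx] at h1
      rw [Subgroup.mem_centralizer_iff] at h1 ⊢
      intro w hw
      have hw' : (n : G)⁻¹ * w * (n : G) ∈ (S : Subgroup G) :=
        (Subgroup.mem_normalizer_iff''.mp n.2 w).mp hw
      have h3 := h1 _ hw'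
      calc w * g = (n : G) * (((n : G)⁻¹ * w * (n : G)) * ((n : G)⁻¹ * g * (n : G))) *
            (n : G)⁻¹ := by group
        _ = (n : G) * (((n : G)⁻¹ * g * (n : G)) * ((n : G)⁻¹ * w * (n : G))) *
            (n : G)⁻¹ := by rw [h3]
        _ = g * w := by group
    · intro g hg
      rw [Subgroup.mem_centralizer_iff] at hg ⊢
      intro h hh
      rw [Set.mem_singleton_iff] at hh
      rw [hh]
      exact hg y hy
  have hL2 : ∀ w : G, w * w = 1 → w ∈ Subgroup.centralizer ((S : Subgroup G) : Set G) →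
      w ∈ (S : Subgroup G) := by
    intro w hww hw
    rw [← hCx] at hw
    exact hmem2 w hw 1 (by rw [pow_one, sq]; exact hww)
  have hrel : (Subgroup.centralizer ((S : Subgroup G) : Set G)).relIndex
      (Subgroup.normalizer ((S : Subgroup G) : Set G)) = 3 := by
    letI : Fintype ↥(Subgroup.normalizer ((S : Subgroup G) : Set G)) := Fintype.ofFinite _
    letI : Fintype ↥(S : Subgroup G) := Fintype.ofFinite _
    have hfrob : ∀ y : G, y ∈ (S : Subgroup G) → y ≠ 1 → Subgroup.centralizer ({y} : Set G) ⊓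
        Subgroup.normalizer ((S : Subgroup G) : Set G) =
          Subgroup.centralizer ((S : Subgroup G) : Set G) := by
      intro y hy hy1
      rw [hfrobS y hy hy1]
      exact inf_eq_left.mpr (Subgroup.centralizer_le_normalizer _)
    have horb := bl_card_orbit
      (fun (n : Subgroup.normalizer ((S : Subgroup G) : Set G)) (w : (S : Subgroup G)) =>
        blCj (S : Subgroup G) n w)
      (fun w => blCj_one _ w) (fun a b w => blCj_mul _ a b w) ⟨x, hxS⟩
      ((Subgroup.centralizer ((S : Subgroup G) : Set G)).subgroupOf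
        (Subgroup.normalizer ((S : Subgroup G) : Set G)))
      (fun n => bl_stabP (S : Subgroup G) hfrob ⟨x, hxS⟩ hx1 n)
    have hfilter : (Finset.univ.filter (fun x' : (S : Subgroup G) =>
        ∃ n : Subgroup.normalizer ((S : Subgroup G) : Set G),
          blCj (S : Subgroup G) n ⟨x, hxS⟩ = x')) = Finset.univ.erase 1 := by
      ext x'
      simp only [Finset.mem_filter, Finset.mem_univ, true_and, Finset.mem_erase, and_true]
      constructor
      · rintro ⟨n, rfl⟩ h
        have h1 : (n : G) * x * (n : G)⁻¹ = 1 := by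
          have := congrArg Subtype.val h
          rwa [blCj_coe] at this
        apply hx1
        have : x = (n : G)⁻¹ * ((n : G) * x * (n : G)⁻¹) * (n : G) := by group
        rw [this, h1]
        group
      · intro h
        have hx'1 : (x' : G) ≠ 1 := fun h' => h (Subtype.ext h')
        have hy2 : orderOf (x' : G) = 2 :=
          orderOf_eq_prime (by rw [sq]; exact hexp _ x'.2) hx'1
        exact bl_fusion S hab ⟨x, hxS⟩ x' (hconj x _ hx hy2)
    rw [hfilter, Finset.card_erase_of_mem (Finset.mem_univ _), Finset.card_univ,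
      ← Nat.card_eq_fintype_card, hcard, ← Nat.card_eq_fintype_card] at horb
    have h1 := Subgroup.card_mul_index ((Subgroup.centralizer ((S : Subgroup G) : Set G)).subgroupOf
      (Subgroup.normalizer ((S : Subgroup G) : Set G)))
    have hpos : 0 < Nat.card ↥((Subgroup.centralizer ((S : Subgroup G) : Set G)).subgroupOf
      (Subgroup.normalizer ((S : Subgroup G) : Set G))) := Nat.card_pos
    have h2 : (Subgroup.centralizer ((S : Subgroup G) : Set G)).relIndex
        (Subgroup.normalizer ((S : Subgroup G) : Set G)) =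
        ((Subgroup.centralizer ((S : Subgroup G) : Set G)).subgroupOf
          (Subgroup.normalizer ((S : Subgroup G) : Set G))).index := rfl
    rw [h2]
    have h3 : Nat.card ↥((Subgroup.centralizer ((S : Subgroup G) : Set G)).subgroupOf
        (Subgroup.normalizer ((S : Subgroup G) : Set G))) *
        ((Subgroup.centralizer ((S : Subgroup G) : Set G)).subgroupOf
          (Subgroup.normalizer ((S : Subgroup G) : Set G))).index =
        Nat.card ↥((Subgroup.centralizer ((S : Subgroup G) : Set G)).subgroupOf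
        (Subgroup.normalizer ((S : Subgroup G) : Set G))) * 3 := by
      rw [h1, ← horb]
      ring
    exact Nat.eq_of_mul_eq_mul_left hpos h3
  exact ⟨S, hxS, hK, hexp, hfrobS, hL2, hrel, hconj⟩

end v4group

end Cfsg.Agent.Lib.Helper78
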