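import Mathlib
import Cfsg.Prelude.Def_Blocks
import Cfsg.Agent.Lib.Helper78.V4Group
import Cfsg.Agent.Lib.Helper78.V4Block
import Cfsg.Agent.Lib.Helper17.Simple
import Cfsg.Agent.Lib.Helper79.DefectZeroTwo

/-!
A simple group with an involution whose centralizer has a normal Klein four Sylow 2-subgroup
has order sixty.
-/

set_option autoImplicit false

namespace Cfsg.Agent.Lib.Helper78

open Cfsg

set_option maxHeartbeats 1000000 in
theorem v4_main {G : Type*} [Group G] [Finite G] [IsSimpleGroup G] (x : G)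
    (hx : orderOf x = 2) (S₀ : Subgroup G) (hle : S₀ ≤ Subgroup.centralizer ({x} : Set G))
    (hK : IsKleinFour ↥S₀)
    (hodd : ¬ 2 ∣ S₀.relIndex (Subgroup.centralizer ({x} : Set G)))
    (hn : (S₀.subgroupOf (Subgroup.centralizer ({x} : Set G))).Normal) :
    Nat.card G = 60 := by
  obtain ⟨P, hxP, hKP, hexp, hfrobS, hL2, hrel, hconj⟩ := v4_setup x hx S₀ hle hK hodd hn
  obtain ⟨M, hMmax, h2M⟩ :=
    Cfsg.Agent.Lib.Helper79.exists_maximal_ideal_natCast_mem 2 (by norm_num)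
  have hM : Cfsg.IsPModular 2 M := ⟨Nat.prime_two, hMmax, h2M⟩
  have hx1 : x ≠ 1 := by
    intro h
    rw [h, orderOf_one] at hx
    omega
  obtain ⟨χ₂, χ₃, χ₄, a₂, a₃, a₄, hne2, hne3, hne4, ha2, ha3, ha4, hv2, hv3, hv4, hc2, hc3, hc4,
    hsum, hD⟩ := v4_block M P hM hKP hfrobS hL2 hconj x hxP hx1
  have hcardP : Nat.card (P : Subgroup G) = 4 := hKP.card_four
  obtain ⟨k, hkdef⟩ : ∃ k : ℕ, k = (Subgroup.centralizer ({x} : Set G)).index := ⟨_, rfl⟩
  have hGk : Nat.card G = Nat.card (Subgroup.centralizer ({x} : Set G)) * k := by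
    rw [hkdef]
    exact (Subgroup.card_mul_index _).symm
  have hCpos : 0 < Nat.card (Subgroup.centralizer ({x} : Set G)) := Nat.card_pos
  have hCx := hfrobS x hxP hx1
  have hk3 : k = 3 * (Subgroup.normalizer ((P : Subgroup G) : Set G)).index := by
    rw [hkdef, hCx, ← Subgroup.relIndex_mul_index (Subgroup.centralizer_le_normalizer _), hrel]
  have hPC : (P : Subgroup G) ≤ Subgroup.centralizer ((P : Subgroup G) : Set G) := by
    intro w hw
    rw [Subgroup.mem_centralizer_iff]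
    intro h hh
    haveI := hKP
    have := (IsKleinFour.isMulCommutative (G := ↥(P : Subgroup G))).is_comm.comm ⟨h, hh⟩ ⟨w, hw⟩
    exact congrArg Subtype.val this
  have hkodd : ¬ 2 ∣ k := by
    intro h
    have h2 : (Subgroup.centralizer ((P : Subgroup G) : Set G)).index ∣
        (P : Subgroup G).index := Subgroup.index_dvd_of_le hPC
    rw [hkdef, hCx] at h
    exact P.not_dvd_index (dvd_trans h h2)
  have hk6 : (k : ℤ) % 6 = 3 := by omega
  have hf₂pos := Cfsg.Agent.Lib.Helper80.charDegree_pos χ₂.2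
  have hf₃pos := Cfsg.Agent.Lib.Helper80.charDegree_pos χ₃.2
  have hf₄pos := Cfsg.Agent.Lib.Helper80.charDegree_pos χ₄.2
  have hchar : ∀ χ : IrrCharacter G, IsCharacter G (χ : G → ℂ) := fun χ =>
    Cfsg.Agent.Lib.Helper80.isCharacter_of_isIrrCharacter χ.2
  have hf₂ := Cfsg.Agent.Lib.Helper80.char_one_eq_charDegree (hchar χ₂)
  have hf₃ := Cfsg.Agent.Lib.Helper80.char_one_eq_charDegree (hchar χ₃)
  have hf₄ := Cfsg.Agent.Lib.Helper80.char_one_eq_charDegree (hchar χ₄)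
  obtain ⟨f₂, hf₂def⟩ : ∃ f₂ : ℕ, Cfsg.charDegree (χ₂ : G → ℂ) = f₂ := ⟨_, rfl⟩
  obtain ⟨f₃, hf₃def⟩ : ∃ f₃ : ℕ, Cfsg.charDegree (χ₃ : G → ℂ) = f₃ := ⟨_, rfl⟩
  obtain ⟨f₄, hf₄def⟩ : ∃ f₄ : ℕ, Cfsg.charDegree (χ₄ : G → ℂ) = f₄ := ⟨_, rfl⟩
  rw [hf₂def] at hf₂ hf₂pos hc2
  rw [hf₃def] at hf₃ hf₃pos hc3
  rw [hf₄def] at hf₄ hf₄pos hc4
  rw [hf₂def, hf₃def, hf₄def] at hsum hD
  have heq : (k : ℤ) * ((f₂ : ℤ) * f₃ * f₄ + a₂ * f₃ * f₄ + a₃ * f₂ * f₄ + a₄ * f₂ * f₃) =
      8 * ((f₂ : ℤ) * f₃ * f₄) := by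
    rw [hGk] at hD
    push_cast at hD
    have hCne : (Nat.card (Subgroup.centralizer ({x} : Set G)) : ℤ) ≠ 0 := by
      exact_mod_cast hCpos.ne'
    apply mul_left_cancel₀ hCne
    linear_combination hD
  have hsimple : ∀ K : Subgroup G, K.Normal → x ∈ K → K = ⊤ := by
    intro K hKn hxK
    rcases hKn.eq_bot_or_eq_top with h | h
    · rw [h, Subgroup.mem_bot] at hxK
      exact absurd hxK hx1
    · exact h
  have hlin : ∀ (χ : IrrCharacter G) (a : ℤ) (f : ℕ),
      χ ≠ Cfsg.Agent.Lib.Helper77.trivIrr G → (χ : G → ℂ) x = (a : ℂ) →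
      (χ : G → ℂ) 1 = (f : ℂ) → ¬ (a = 1 ∧ (f : ℤ) = 1) := by
    intro χ a f hne hv hf1 ⟨h1, h2⟩
    apply bl_val_ne_deg χ hne x hsimple
    rw [hv, hf1, h1]
    have : f = 1 := by exact_mod_cast h2
    rw [this]
    norm_num
  rcases v4_arith a₂ a₃ a₄ f₂ f₃ f₄ k ha2 ha3 ha4 (by exact_mod_cast hf₂pos)
    (by exact_mod_cast hf₃pos) (by exact_mod_cast hf₄pos) hc2 hc3 hc4 hsum hk6 heq with h | h
  · exfalso
    rcases h with h | h | h
    · exact hlin χ₂ a₂ f₂ hne2 hv2 hf₂ h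
    · exact hlin χ₃ a₃ f₃ hne3 hv3 hf₃ h
    · exact hlin χ₄ a₄ f₄ hne4 hv4 hf₄ h
  · have hk15 : k = 15 := by exact_mod_cast h
    have hN5 : (Subgroup.normalizer ((P : Subgroup G) : Set G)).index = 5 := by omega
    have hNtop : Subgroup.normalizer ((P : Subgroup G) : Set G) ≠ ⊤ := by
      intro h'
      rw [h', Subgroup.index_top] at hN5
      omega
    have h4G : 4 ∣ Nat.card G := by
      rw [← hcardP]
      exact Subgroup.card_subgroup_dvd_card _
    have hnp : ¬ (Nat.card G).Prime := by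
      intro hp
      have h2 : (2 : ℕ) ∣ Nat.card G := dvd_trans (by norm_num) h4G
      have h3 := (Nat.prime_dvd_prime_iff_eq Nat.prime_two hp).mp h2
      rw [← h3] at h4G
      omega
    have hdvd := Cfsg.Agent.Lib.Helper17.two_mul_card_dvd_factorial_index hnp _ hNtop
    rw [hN5] at hdvd
    have h4C : 4 ∣ Nat.card (Subgroup.centralizer ({x} : Set G)) := by
      rw [← hcardP, hCx]
      exact Subgroup.card_dvd_of_le hPC
    obtain ⟨m, hm⟩ := h4C
    rw [hm, hk15] at hGk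
    have hfact : Nat.factorial 5 = 120 := by decide
    rw [hfact] at hdvd
    have hpos : 0 < Nat.card G := Nat.card_pos
    obtain ⟨q, hq⟩ := hdvd
    have hm1 : m = 1 := by
      rcases Nat.eq_zero_or_pos m with h0 | h0
      · rw [h0] at hGk
        omega
      · rcases Nat.eq_zero_or_pos q with hq0 | hq0
        · rw [hq0] at hq
          omega
        · by_contra hne
          have hm2 : 2 ≤ m := by omega
          have : 2 * (4 * m * 15) * q ≥ 2 * (4 * 2 * 15) * 1 := by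
            apply Nat.mul_le_mul
            · apply Nat.mul_le_mul_left
              apply Nat.mul_le_mul_right
              omega
            · omega
          rw [← hGk] at this
          omega
    rw [hGk, hm1]

end Cfsg.Agent.Lib.Helper78
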